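import Mathlib
import Cfsg.Agent.H278.ElAlt
import Cfsg.Agent.H394.SqAlt
import Cfsg.Agent.S0713

/-!
# Maximal subgroups of `A_m`, `S_m` miss a class of elements of order the largest prime divisor of the index
-/

set_option autoImplicit false

namespace Cfsg.Agent.H344.AltDer

open MulAction Equiv Equiv.Perm Cfsg.Agent.H394.SqBasic Cfsg.Agent.H394.SqAlt
open scoped Pointwise

/-- `p ^ 2 ∤ n!` for `n < 2p` -/
theorem not_sq_dvd_fact {p n : ℕ} (hp : p.Prime) (hn : n < 2 * p) : ¬ p ^ 2 ∣ n.factorial := by
  intro h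
  have hp0 := hp.pos
  have h3 := (hp.pow_dvd_factorial_iff (n := n) (r := 2) (b := n + 1)
    (Nat.lt_succ_of_le (Nat.log_le_self p n))).1 h
  have h4 : ∑ i ∈ Finset.Ico 1 (n + 1), n / p ^ i ≤ 1 := by
    rcases Nat.eq_zero_or_pos n with h0 | h0
    · subst h0
      simp
    · rw [Finset.sum_eq_sum_Ico_succ_bot (by omega)]
      have h5 : ∑ i ∈ Finset.Ico (1 + 1) (n + 1), n / p ^ i = 0 := by
        apply Finset.sum_eq_zero
        intro i hi
        rw [Finset.mem_Ico] at hi
        apply Nat.div_eq_of_lt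
        have h6 : p ^ 2 ≤ p ^ i := Nat.pow_le_pow_right hp0 (by omega)
        have h7 : 2 * p ≤ p ^ 2 := by
          rw [pow_two]
          exact Nat.mul_le_mul_right p hp.two_le
        omega
      rw [h5, add_zero, pow_one]
      have : n / p < 2 := Nat.div_lt_of_lt_mul (by rw [mul_comm]; exact hn)
      omega
  omega

/-- a transitive imprimitive group has no element of prime order `l > m / 2` -/
theorem not_dvd_of_imprim {m : ℕ} (hm : 1 ≤ m) (S : Subgroup (Perm (Fin m))) (htr : IsPretransitive S (Fin m))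
    (hpr : ¬ IsPreprimitive S (Fin m)) {l : ℕ} (hl : l.Prime) (h2l : m < 2 * l) : ¬ l ∣ Nat.card S := by
  classical
  intro hdvd
  have := Fact.mk hl
  obtain ⟨h, ho⟩ := exists_prime_orderOf_dvd_card' l hdvd
  have hhl : h ^ l = 1 := by rw [← ho, pow_orderOf_eq_one]
  have hh1 : h ≠ 1 := by
    rintro rfl
    rw [orderOf_one] at ho
    exact hl.one_lt.ne ho
  have hne : Nonempty (Fin m) := ⟨⟨0, by omega⟩⟩
  apply hpr
  refine ⟨fun {B} hB => ?_⟩
  by_contra hnt
  rw [IsTrivialBlock, not_or] at hnt
  obtain ⟨hns, hnu⟩ := hnt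
  have hBne : B.Nonempty := by
    by_contra h0
    rw [Set.not_nonempty_iff_eq_empty] at h0
    exact hns (h0 ▸ Set.subsingleton_empty)
  have hcard := hB.ncard_block_mul_ncard_orbit_eq hBne
  have hcn : Nat.card (Fin m) = m := by rw [Nat.card_eq_fintype_card, Fintype.card_fin]
  rw [hcn] at hcard
  have hB2 : 2 ≤ B.ncard := by
    rw [Nat.succ_le_iff, Set.one_lt_ncard (Set.toFinite B)]
    rw [Set.not_subsingleton_iff] at hns
    obtain ⟨a, ha, b, hb, hab⟩ := hns
    exact ⟨a, ha, b, hb, hab⟩
  have hO2 : 2 ≤ (orbit S B).ncard := by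
    by_contra hlt
    have h1 : (orbit S B).ncard = 0 ∨ (orbit S B).ncard = 1 := by omega
    rcases h1 with h1 | h1
    · rw [h1] at hcard; omega
    · rw [h1, mul_one] at hcard
      apply hnu
      apply Set.eq_of_subset_of_ncard_le (Set.subset_univ B)
      rw [Set.ncard_univ, hcn, hcard]
  have hO : (orbit S B).ncard < l := by
    by_contra hge
    push Not at hge
    have : 2 * l ≤ B.ncard * (orbit S B).ncard := Nat.mul_le_mul hB2 hge
    omega
  have hBl : B.ncard < l := by
    by_contra hge
    push Not at hge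
    have : l * 2 ≤ B.ncard * (orbit S B).ncard := Nat.mul_le_mul hge hO2
    omega
  have hfixB : ∀ C ∈ orbit S B, h • C = C := by
    intro C hC
    refine fix_of_lt hl hhl (orbit S B) (Set.toFinite _) ?_ hO C hC
    intro D hD
    exact MulAction.mem_orbit_of_mem_orbit h hD
  apply hh1
  apply Subtype.ext
  ext x : 1
  obtain ⟨b, hb⟩ := hBne
  obtain ⟨m', hm'⟩ := htr.exists_smul_eq b x
  have hx : x ∈ m' • B := by rw [← hm']; exact Set.smul_mem_smul_set hb
  have h1 := hfixB (m' • B) ⟨m', rfl⟩
  have h2 := fix_of_lt hl hhl (m' • B) (Set.toFinite _) (fun y hy => by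
    have : h • y ∈ h • (m' • B) := Set.smul_mem_smul_set hy
    rwa [h1] at this) (by rw [Set.ncard_smul_set]; exact hBl) x hx
  exact h2

section

variable {m : ℕ} (hm : 5 ≤ m) (Gp S : Subgroup (Perm (Fin m)))
  (hA : alternatingGroup (Fin m) ≤ Gp) (hS : S ≤ Gp)
  (hmax : ∀ K : Subgroup (Perm (Fin m)), S ≤ K → K ≤ Gp → K = S ∨ K = Gp)
  {r n : ℕ} (hr : r.Prime) (hn : Nat.card Gp = n * Nat.card S) (hrn : r ∣ n)
  (hrmax : ∀ s : ℕ, s.Prime → s ∣ n → s ≤ r)

include hm hA hS hmax hr hn hrn hrmax in
/-- the intransitive case -/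
theorem intrans_key (Δ : Finset (Fin m)) (hΔ1 : 1 ≤ Δ.card) (hΔ2 : 2 * Δ.card ≤ m)
    (hinv : ∀ g ∈ S, ∀ x ∈ Δ, g x ∈ Δ) :
    ∃ g ∈ alternatingGroup (Fin m), orderOf g = r ∧ ∀ x : Perm (Fin m), x * g * x⁻¹ ∉ S := by
  classical
  set k := Δ.card with hk
  let s : Set.powersetCard (Fin m) k := ⟨Δ, hk.symm⟩
  have hcn : Nat.card (Fin m) = m := by rw [Nat.card_eq_fintype_card, Fintype.card_fin]
  have hmt : IsMultiplyPretransitive (alternatingGroup (Fin m)) (Fin m) (Nat.card (Fin m) - 2) :=
    alternatingGroup.isMultiplyPretransitive (Fin m)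
  rw [hcn] at hmt
  have hmk : IsMultiplyPretransitive (alternatingGroup (Fin m)) (Fin m) k :=
    MulAction.isMultiplyPretransitive_of_le (n := m - 2) (by omega)
      (by rw [hcn]; omega)
  let inst : MulAction (alternatingGroup (Fin m)) (Set.powersetCard (Fin m) k) :=
    Set.powersetCard.instMulActionElemFinset (alternatingGroup (Fin m))
  have htr := Set.powersetCard.isPretransitive_of_isMultiplyPretransitive
    (alternatingGroup (Fin m)) (α := Fin m) (n := k) hmk
  let instG : MulAction Gp (Set.powersetCard (Fin m) k) :=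
    Set.powersetCard.instMulActionElemFinset Gp
  have htrG : IsPretransitive Gp (Set.powersetCard (Fin m) k) := by
    refine ⟨fun a b => ?_⟩
    obtain ⟨g, hg⟩ := htr.exists_smul_eq a b
    refine ⟨⟨(g : Perm (Fin m)), hA g.2⟩, ?_⟩
    rw [← hg]
    rfl
  have hidx : (stabilizer Gp s).index = m.choose k := by
    rw [index_stabilizer_of_transitive, Set.powersetCard.card, hcn]
  have hchoose : 1 < m.choose k := by
    have h1 : 0 < m.choose k := Nat.choose_pos (by omega)
    have h2 : m.choose k ≠ 1 := by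
      rw [Ne, Nat.choose_eq_one_iff]
      omega
    omega
  have hSs : ∀ g (hg : g ∈ S), (⟨g, hS hg⟩ : Gp) ∈ stabilizer Gp s := by
    intro g hg
    rw [mem_stabilizer_iff]
    apply Subtype.ext
    show (⟨g, hS hg⟩ : Gp) • Δ = Δ
    apply Finset.eq_of_subset_of_card_le
    · intro y hy
      obtain ⟨x, hx, rfl⟩ := Finset.mem_smul_finset.1 hy
      exact hinv g hg x hx
    · rw [Finset.card_smul_finset]
  have hK : (stabilizer Gp s).map Gp.subtype = S := by
    rcases hmax ((stabilizer Gp s).map Gp.subtype) (fun g hg => ⟨⟨g, hS hg⟩, hSs g hg, rfl⟩)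
      (by rintro _ ⟨g, -, rfl⟩; exact g.2) with h | h
    · exact h
    · exfalso
      have h1 : stabilizer Gp s = ⊤ := by
        rw [eq_top_iff]
        intro g _
        have h2 : (g : Perm (Fin m)) ∈ (stabilizer Gp s).map Gp.subtype := by rw [h]; exact g.2
        obtain ⟨g', hg', hgg⟩ := h2
        rwa [← Subtype.ext (p := (· ∈ Gp)) hgg]
      rw [h1, Subgroup.index_top] at hidx
      omega
  have hcS : Nat.card (stabilizer Gp s) = Nat.card S := by
    rw [← hK]
    exact (Nat.card_congr ((stabilizer Gp s).equivMapOfInjective _ Gp.subtype_injective).toEquiv)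
  have hnc : n = m.choose k := by
    have h1 := Subgroup.card_mul_index (stabilizer Gp s)
    rw [hidx, hn, hcS, mul_comm] at h1
    exact (Nat.eq_of_mul_eq_mul_right Nat.card_pos h1).symm
  -- the prime
  obtain ⟨l, hl, hl2, hkl, hln, h3⟩ := Cfsg.Agent.H278.El.Alt.exists_num hm hΔ1 hΔ2
  have hlc : l ∣ m.choose k := by
    have : Fact l.Prime := ⟨hl⟩
    have h1 := Choose.choose_modEq_choose_mod_mul_choose_div_nat (n := m) (k := k) (p := l)
    rw [Nat.mod_eq_of_lt hkl, Nat.div_eq_of_lt hkl, Nat.choose_zero_right, mul_one,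
      Nat.choose_eq_zero_of_lt h3] at h1
    exact (Nat.modEq_zero_iff_dvd).1 h1
  have hlr : l ≤ r := hrmax l hl (hnc ▸ hlc)
  have hkr : k < r := by omega
  have hrc : r ∣ m.choose k := hnc ▸ hrn
  have hmr : m % r < k := Cfsg.Agent.H394.SqNum.mod_lt_of_dvd_choose hr hkr hrc
  have hrm : r ≤ m := by
    by_contra hcon
    push Not at hcon
    rw [Nat.mod_eq_of_lt hcon] at hmr
    omega
  obtain ⟨g, hg, ho⟩ : ∃ g : alternatingGroup (Fin m),
      (g : Perm (Fin m)).cycleType = Multiset.replicate (m / r) r ∧ orderOf g = r := by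
    by_cases h2 : r = 2
    · obtain ⟨a, ha⟩ : ∃ a, m = 2 ^ a := by
        have hk1 : k = 1 := by omega
        have h4 : ∀ p : ℕ, p.Prime → p ∣ m → p = 2 := by
          intro p hp hpm
          have h5 := hrmax p hp (by rw [hnc, hk1, Nat.choose_one_right]; exact hpm)
          have := hp.two_le
          omega
        exact ⟨_, Nat.eq_prime_pow_of_unique_prime_dvd (by omega) (fun {d} hd hdm => h4 d hd hdm)⟩
      rw [h2]
      exact Cfsg.Agent.H278.El.Alt.exists_full_two hm ha
    · exact exists_full m r hr h2 hrm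
  refine ⟨g, g.2, by rw [Subgroup.orderOf_coe]; exact ho, ?_⟩
  intro x hx
  set h := x * (g : Perm (Fin m)) * x⁻¹ with hh
  have hct : h.cycleType = Multiset.replicate (m / r) r := by
    rw [hh, cycleType_conj, hg]
  have hhl : h ^ r = 1 := by
    rw [hh, conj_pow]
    have : (g : Perm (Fin m)) ^ r = 1 := by
      rw [← Subgroup.coe_pow, ← ho, pow_orderOf_eq_one]; rfl
    rw [this, mul_one, mul_inv_cancel]
  have hfix : ∀ x ∈ Δ, h x = x := by
    intro x' hx'
    exact fix_of_lt (G := Perm (Fin m)) hr hhl (Δ : Set (Fin m)) (Finset.finite_toSet Δ)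
      (fun y hy => hinv h hx y hy) (by rw [Set.ncard_coe_finset]; exact hkr) x' hx'
  have h1 : Δ ⊆ Finset.univ.filter (fun x => h x = x) := by
    intro x hx
    rw [Finset.mem_filter]
    exact ⟨Finset.mem_univ _, hfix x hx⟩
  have h2 := Finset.card_le_card h1
  rw [card_fixed_of_cycleType hct] at h2
  omega

include hm hA hS hmax hr hn hrn hrmax in
theorem key (hSA : ¬ alternatingGroup (Fin m) ≤ S) :
    ¬ r ∣ Nat.card S ∨
      ∃ g ∈ alternatingGroup (Fin m), orderOf g = r ∧ ∀ x : Perm (Fin m), x * g * x⁻¹ ∉ S := by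
  classical
  have hcn : Nat.card (Fin m) = m := by rw [Nat.card_eq_fintype_card, Fintype.card_fin]
  have hcP : Nat.card (Perm (Fin m)) = m.factorial := by rw [Nat.card_perm, hcn]
  have hGd : Nat.card Gp ∣ m.factorial := hcP ▸ Subgroup.card_subgroup_dvd_card Gp
  have hcA : Nat.card (alternatingGroup (Fin m)) * 2 = m.factorial := by
    have : Nontrivial (Fin m) := Fin.nontrivial_iff_two_le.2 (by omega)
    have h1 := two_mul_nat_card_alternatingGroup (α := Fin m)
    rw [hcP] at h1
    omega
  have hAd : Nat.card (alternatingGroup (Fin m)) ∣ Nat.card Gp := Subgroup.card_dvd_of_le hA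
  have hrS : Nat.card S ∣ Nat.card Gp := Subgroup.card_dvd_of_le hS
  have hnd : n ∣ m.factorial := (Dvd.intro _ hn.symm).trans hGd
  have hrm : r ≤ m := hr.dvd_factorial.1 (hrn.trans hnd)
  have hbig : m < 2 * r → ¬ r ∣ Nat.card S := by
    intro h1 h2
    apply not_sq_dvd_fact hr h1
    refine dvd_trans ?_ hGd
    rw [hn, pow_two]
    exact mul_dvd_mul hrn h2
  by_cases htr : IsPretransitive S (Fin m)
  · by_cases hpr : IsPreprimitive S (Fin m)
    · by_cases hr2 : r = 2
      · -- `n` is a power of two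
        exfalso
        have hG2 : Gp.index ∣ 2 := by
          have : Nontrivial (Fin m) := Fin.nontrivial_iff_two_le.2 (by omega)
          rw [← alternatingGroup.index_eq_two (α := Fin m)]
          exact Subgroup.index_dvd_of_le hA
        have h3 : ¬ 3 ∣ S.index := by
          intro h3
          have h4 := Subgroup.card_mul_index S
          have h5 := Subgroup.card_mul_index Gp
          rw [← h5, hn, mul_comm n, mul_assoc] at h4
          rw [Nat.eq_of_mul_eq_mul_left Nat.card_pos h4] at h3
          rcases (Nat.prime_three.dvd_mul).1 h3 with h6 | h6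
          · have := hrmax 3 Nat.prime_three h6
            omega
          · have := Nat.le_of_dvd (by norm_num) (h6.trans hG2)
            omega
        obtain ⟨c, hc⟩ : ∃ σ : Perm (Fin m), σ.cycleType = {3} := by
          rw [exists_with_cycleType_iff]
          simp only [Multiset.sum_singleton, Multiset.mem_singleton, forall_eq, Fintype.card_fin]
          omega
        have hc3 : c.IsThreeCycle := hc
        have hpg : IsPGroup 3 (Subgroup.zpowers c) := by
          apply IsPGroup.of_card (n := 1)
          rw [Nat.card_zpowers, hc3.orderOf, pow_one]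
        have hf3 : Fact (Nat.Prime 3) := ⟨Nat.prime_three⟩
        obtain ⟨q, hq⟩ := hpg.nonempty_fixed_point_of_prime_not_dvd_card (Perm (Fin m) ⧸ S) h3
        obtain ⟨x, rfl⟩ := QuotientGroup.mk_surjective q
        have h4 := hq ⟨c, Subgroup.mem_zpowers c⟩
        have h5 : x⁻¹ * c * x ∈ S := by
          change ((c * x : Perm (Fin m)) : Perm (Fin m) ⧸ S) = x at h4
          rw [eq_comm, QuotientGroup.eq] at h4
          rwa [mul_assoc]
        apply hSA
        refine alternatingGroup_le_of_isPreprimitive_of_isThreeCycle_mem hpr (g := x⁻¹ * c * x) ?_ h5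
        have h6 : (x⁻¹ * c * x⁻¹⁻¹).cycleType = {3} := by rw [cycleType_conj, hc]
        rwa [inv_inv] at h6
      · by_cases hr3 : r + 3 ≤ m
        · right
          obtain ⟨g, hg⟩ : ∃ σ : Perm (Fin m), σ.cycleType = {r} := by
            rw [exists_with_cycleType_iff]
            simp only [Multiset.sum_singleton, Multiset.mem_singleton, forall_eq, Fintype.card_fin]
            exact ⟨hrm, hr.two_le⟩
          have hgc : ∀ x : Perm (Fin m), (x * g * x⁻¹).cycleType = {r} := by
            intro x; rw [cycleType_conj, hg]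
          have hodd : Odd r := hr.odd_of_ne_two hr2
          refine ⟨g, ?_, ?_, ?_⟩
          · rw [mem_alternatingGroup, sign_of_cycleType, hg, Multiset.sum_singleton, Multiset.card_singleton]
            exact (hodd.add_odd odd_one).neg_one_pow
          · rw [← lcm_cycleType, hg, Multiset.lcm_singleton]
            simp
          · intro x hx
            apply hSA
            have h1 : (x * g * x⁻¹).IsCycle := by
              rw [← card_cycleType_eq_one, hgc, Multiset.card_singleton]
            have h2 : (x * g * x⁻¹).support.card = r := by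
              rw [← sum_cycleType, hgc, Multiset.sum_singleton]
            exact Cfsg.Agent.S0713.result S hpr hr (by rw [Fintype.card_fin]; exact hm)
              (by rw [Fintype.card_fin]; exact hr3) h1 h2 hx
        · left
          apply hbig
          omega
    · -- imprimitive
      left
      obtain ⟨l, hl, hl1, hl2⟩ := Nat.exists_prime_lt_and_le_two_mul (m / 2) (by omega)
      have hS1 := not_dvd_of_imprim (by omega) S htr hpr hl (by omega)
      have h1 : l ∣ Nat.card Gp := by
        refine dvd_trans ?_ hAd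
        have h2 : l ∣ Nat.card (alternatingGroup (Fin m)) * 2 := by
          rw [hcA]; exact hl.dvd_factorial.2 (by omega)
        refine (hl.dvd_mul.1 h2).resolve_right fun h3 => ?_
        have := Nat.le_of_dvd (by norm_num) h3
        omega
      rw [hn] at h1
      have h2 : l ∣ n := (hl.dvd_mul.1 h1).resolve_right hS1
      have h3 := hrmax l hl h2
      exact not_dvd_of_imprim (by omega) S htr hpr hr (by omega)
  · -- intransitive
    right
    have hex : ∃ x y : Fin m, y ∉ orbit S x := by
      by_contra h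
      push Not at h
      apply htr
      exact ⟨fun x y => h x y⟩
    obtain ⟨x, y, hy⟩ := hex
    let Δ : Finset (Fin m) := (orbit S x).toFinset
    have hinv : ∀ g ∈ S, ∀ z ∈ Δ, g z ∈ Δ := by
      intro g hg z hz
      rw [Set.mem_toFinset] at hz ⊢
      obtain ⟨s, rfl⟩ := hz
      refine ⟨⟨g, hg⟩ * s, ?_⟩
      show ((⟨g, hg⟩ * s : S) • x : Fin m) = _
      rw [mul_smul]
      rfl
    have hinv' : ∀ g ∈ S, ∀ z ∈ Δᶜ, g z ∈ Δᶜ := by
      intro g hg z hz
      rw [Finset.mem_compl] at hz ⊢
      intro h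
      apply hz
      have := hinv g⁻¹ (inv_mem hg) _ h
      rw [Equiv.Perm.inv_def, Equiv.symm_apply_apply] at this
      exact this
    have hx : x ∈ Δ := by rw [Set.mem_toFinset]; exact mem_orbit_self x
    have hy' : y ∈ Δᶜ := by rw [Finset.mem_compl, Set.mem_toFinset]; exact hy
    have hc : Δᶜ.card = m - Δ.card := by rw [Finset.card_compl, Fintype.card_fin]
    have h1 : 1 ≤ Δ.card := Finset.card_pos.2 ⟨x, hx⟩
    have h2 : 1 ≤ Δᶜ.card := Finset.card_pos.2 ⟨y, hy'⟩
    rcases Nat.lt_or_ge m (2 * Δ.card) with h | h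
    · exact intrans_key hm Gp S hA hS hmax hr hn hrn hrmax Δᶜ h2 (by omega) hinv'
    · exact intrans_key hm Gp S hA hS hmax hr hn hrn hrmax Δ h1 h hinv

end

end Cfsg.Agent.H344.AltDer
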