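import Mathlib
import Cfsg.Agent.H344.AltDerA
import Cfsg.Agent.S2119
import Cfsg.Agent.H497.AltId

/-!
# S3571, degree different from six
-/

set_option autoImplicit false

namespace Cfsg.Agent.H344.AltDer

open MulAction Equiv Equiv.Perm

section

variable {G Ω : Type*} [Group G] [Finite G] [MulAction G Ω] [FaithfulSMul G Ω] [Finite Ω]

omit [Finite G] [FaithfulSMul G Ω] [Finite Ω] in
/-- an element without conjugates in a point stabiliser has no fixed points -/
theorem no_fix [IsPretransitive G Ω] (ω : Ω) (g : G) (h : ∀ x : G, x⁻¹ * g * x ∉ stabilizer G ω) (ω' : Ω) :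
    g • ω' ≠ ω' := by
  intro h1
  obtain ⟨x, rfl⟩ := exists_smul_eq G ω ω'
  apply h x
  rw [mem_stabilizer_iff, mul_smul, mul_smul, h1, inv_smul_smul]

omit [FaithfulSMul G Ω] [Finite Ω] in
/-- the coprime case -/
theorem of_not_dvd [IsPretransitive G Ω] (ω : Ω) {r : ℕ} (hr : r.Prime) (hrd : r ∣ Nat.card Ω)
    (h : ¬ r ∣ Nat.card (stabilizer G ω)) : ∃ g : G, orderOf g = r ∧ ∀ ω : Ω, g • ω ≠ ω := by
  have := Fact.mk hr
  have h1 : r ∣ Nat.card G := by
    rw [← Subgroup.card_mul_index (stabilizer G ω), index_stabilizer_of_transitive]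
    exact hrd.mul_left _
  obtain ⟨g, hg⟩ := exists_prime_orderOf_dvd_card' r h1
  refine ⟨g, hg, no_fix ω g fun x hx => h ?_⟩
  have h2 : orderOf (⟨x⁻¹ * g * x, hx⟩ : stabilizer G ω) = r := by
    rw [Subgroup.orderOf_mk, ← hg]
    have h3 := MulEquiv.orderOf_eq (MulAut.conj x⁻¹) g
    rwa [MulAut.conj_apply, inv_inv] at h3
  rw [← h2]
  exact orderOf_dvd_natCard _

omit [Finite G] [Finite Ω] in
/-- a normal subgroup contained in a point stabiliser is trivial -/
theorem eq_bot_of_le_stab [IsPretransitive G Ω] (ω : Ω) (N : Subgroup G) [N.Normal] (h : N ≤ stabilizer G ω) :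
    N = ⊥ := by
  rw [eq_bot_iff]
  intro t ht
  rw [Subgroup.mem_bot]
  apply FaithfulSMul.eq_of_smul_eq_smul (α := Ω)
  intro ω'
  obtain ⟨x, rfl⟩ := exists_smul_eq G ω ω'
  have h1 : x⁻¹ * t * x ∈ N := by
    have := ‹N.Normal›.conj_mem t ht x⁻¹
    rwa [inv_inv] at this
  have h2 := h h1
  rw [mem_stabilizer_iff, mul_smul, mul_smul, inv_smul_eq_iff] at h2
  rw [h2, one_smul]

theorem main_ne_six (T : Subgroup G) (hT : T.Normal) (hTc : Subgroup.centralizer (T : Set G) = ⊥) (m : ℕ)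
    (hm : 5 ≤ m) (h6 : m ≠ 6)
    (eT : ↥T ≃* ↥(alternatingGroup (Fin m))) (hprim : MulAction.IsPreprimitive G Ω) (hΩ : 2 ≤ Nat.card Ω)
    (r : ℕ) (hr : r.Prime) (hrd : r ∣ Nat.card Ω) (hmax : ∀ s : ℕ, s.Prime → s ∣ Nat.card Ω → s ≤ r) :
    ∃ g : G, orderOf g = r ∧ ∀ ω : Ω, g • ω ≠ ω := by
  classical
  obtain ⟨k, rfl⟩ : ∃ k, m = k + 2 := ⟨m - 2, by omega⟩
  have hnt : Nontrivial Ω := Finite.one_lt_card_iff_nontrivial.1 (by omega)
  obtain ⟨ψ, hψ, hψc⟩ := Cfsg.Agent.H497.AltId.exists_psi (X := G) (K := T) (m := k) (by omega) eT (by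
    intro x
    obtain ⟨σ, hσ⟩ := (Cfsg.Agent.S2119.result (k + 2) (by omega) h6).2 (MulAut.congr eT (MulAut.conjNormal x))
    refine ⟨σ, fun t => ?_⟩
    have h1 := congrArg Subtype.val (DFunLike.congr_fun hσ (eT t))
    rw [MulAut.conjNormal_apply] at h1
    rw [h1]
    change _ = ((eT (MulAut.conjNormal x (eT.symm (eT t))) : alternatingGroup (Fin (k + 2))) : Perm (Fin (k + 2)))
    rw [eT.symm_apply_apply])
  have hinj : Function.Injective ψ := by
    rw [injective_iff_map_eq_one]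
    intro x hx
    have h3 := hψc x hx
    rwa [hTc, Subgroup.mem_bot] at h3
  obtain ⟨ω⟩ : Nonempty Ω := inferInstance
  set H := stabilizer G ω with hH
  have hco : IsCoatom H := (isCoatom_stabilizer_iff_preprimitive G ω).2 hprim
  have hcard : Nat.card ψ.range = Nat.card Ω * Nat.card (H.map ψ) := by
    rw [← Nat.card_congr (MonoidHom.ofInjective hinj).toEquiv,
      ← Nat.card_congr (H.equivMapOfInjective ψ hinj).toEquiv, ← Subgroup.card_mul_index H,
      hH, index_stabilizer_of_transitive, mul_comm]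
  have hA : alternatingGroup (Fin (k + 2)) ≤ ψ.range := by
    intro σ hσ
    exact ⟨eT.symm ⟨σ, hσ⟩, by rw [hψ, eT.apply_symm_apply]⟩
  rcases key hm ψ.range (H.map ψ) hA (Subgroup.map_le_range ψ H) (by
      intro K hK1 hK2
      have h1 : H ≤ K.comap ψ := Subgroup.map_le_iff_le_comap.1 hK1
      have h2 : (K.comap ψ).map ψ = K := Subgroup.map_comap_eq_self hK2
      rcases hco.le_iff.1 h1 with h3 | h3
      · right
        rw [← h2, h3, MonoidHom.range_eq_map]
      · left
        rw [← h2, h3]) hr hcard hrd hmax (by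
      intro h1
      have h2 : T ≤ H := by
        intro t ht
        have h3 : ψ t ∈ H.map ψ := by
          apply h1
          have := hψ ⟨t, ht⟩
          rw [this]
          exact (eT ⟨t, ht⟩).2
        obtain ⟨h, hh, hht⟩ := h3
        rwa [← hinj hht]
      have h3 := eq_bot_of_le_stab ω T h2
      have h4 := Nat.card_congr eT.toEquiv
      rw [h3, Subgroup.card_bot, nat_card_alternatingGroup, Nat.card_eq_fintype_card, Fintype.card_fin] at h4
      have h5 : (5 : ℕ).factorial ≤ (k + 2).factorial := Nat.factorial_le (by omega)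
      have h6 : (5 : ℕ).factorial = 120 := rfl
      omega) with h | ⟨g, hg, ho, hx⟩
  · apply of_not_dvd ω hr hrd
    rwa [← Nat.card_congr (H.equivMapOfInjective ψ hinj).toEquiv] at h
  · refine ⟨(eT.symm ⟨g, hg⟩ : T), ?_, no_fix ω _ fun x hx' => hx (ψ x)⁻¹ ?_⟩
    · rw [Subgroup.orderOf_coe, MulEquiv.orderOf_eq, Subgroup.orderOf_mk, ho]
    · refine ⟨_, hx', ?_⟩
      rw [map_mul, map_mul, hψ, eT.apply_symm_apply, map_inv, inv_inv]

end

end Cfsg.Agent.H344.AltDer
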