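import Cfsg.Agent.H344.Wr
import Cfsg.Agent.ClassicalGeometry.NonsplitTorus
import Cfsg.Agent.H341.ThreeElts

/-!
# Commuting `SL₂`-blocks in a group with property `KH` (helper344)
-/

set_option autoImplicit false

namespace Cfsg.Agent.H344.Blocks

open Matrix Subgroup Cfsg.Agent.H344.Wr

universe u v w

variable {K : Type u} [Group K]

/-- an abelian group mapping injectively -/
theorem hom {N : ℕ} (h : KH N K) {A : Type v} [Group A] (hA : ∀ a b : A, a * b = b * a)
    (φ : A →* K) (hφ : Function.Injective φ) (h27 : 27 ∣ Nat.card A) : Nat.card A = 27 ∧ ∀ a : A, a ^ 3 = 1 := by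
  have hc : Nat.card φ.range = Nat.card A := Nat.card_congr (MonoidHom.ofInjective hφ).toEquiv.symm
  obtain ⟨h1, h2⟩ := h.ab φ.range (by
    rintro _ ⟨a, rfl⟩ _ ⟨b, rfl⟩
    rw [← map_mul, hA, map_mul]) (by rw [hc]; exact h27)
  refine ⟨by rw [← hc, h1], fun a => hφ ?_⟩
  rw [map_pow, h2 _ ⟨a, rfl⟩, map_one]

/-- the product of three commuting homomorphisms -/
def prod3 {A B C : Type*} [Group A] [Group B] [Group C] (f : A →* K) (g : B →* K) (k : C →* K)
    (hfg : ∀ a b, f a * g b = g b * f a) (hfk : ∀ a c, f a * k c = k c * f a) (hgk : ∀ b c, g b * k c = k c * g b) :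
    A × B × C →* K where
  toFun p := f p.1 * g p.2.1 * k p.2.2
  map_one' := by simp
  map_mul' p q := by
    simp only [Prod.fst_mul, Prod.snd_mul, map_mul]
    calc f p.1 * f q.1 * (g p.2.1 * g q.2.1) * (k p.2.2 * k q.2.2)
        = f p.1 * (f q.1 * g p.2.1) * g q.2.1 * k p.2.2 * k q.2.2 := by group
      _ = f p.1 * (g p.2.1 * f q.1) * (g q.2.1 * k p.2.2) * k q.2.2 := by rw [hfg]; group
      _ = f p.1 * g p.2.1 * (f q.1 * k p.2.2) * g q.2.1 * k q.2.2 := by rw [hgk]; group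
      _ = f p.1 * g p.2.1 * k p.2.2 * (f q.1 * g q.2.1 * k q.2.2) := by rw [hfk]; group

theorem prod3_apply {A B C : Type*} [Group A] [Group B] [Group C] (f : A →* K) (g : B →* K) (k : C →* K)
    (hfg : ∀ a b, f a * g b = g b * f a) (hfk : ∀ a c, f a * k c = k c * f a) (hgk : ∀ b c, g b * k c = k c * g b)
    (a : A) (b : B) (c : C) : prod3 f g k hfg hfk hgk (a, b, c) = f a * g b * k c := rfl

theorem odd_of_sq {G : Type*} [Group G] {a b : G} {n : ℕ} (hn : Odd n) (ha : orderOf a = n) (hb : b ∈ zpowers a)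
    (h2 : b ^ 2 = 1) : b = 1 := by
  have h1 : orderOf b ∣ n := by rw [← ha]; exact orderOf_dvd_of_mem_zpowers hb
  have h3 : orderOf b ∣ 2 := orderOf_dvd_of_pow_eq_one h2
  have h4 : Nat.Coprime n 2 := Nat.coprime_two_right.2 hn
  have h5 : orderOf b ∣ 1 := by
    rw [← h4]
    exact Nat.dvd_gcd h1 h3
  exact orderOf_eq_one_iff.1 (Nat.dvd_one.1 h5)

/-- elements of `SL₂(q)` -/
theorem exists_order {L : Type} [Field L] [Fintype L] {n : ℕ}
    (hn : n ∣ Fintype.card L - 1 ∨ n ∣ Fintype.card L + 1) : ∃ u : SpecialLinearGroup (Fin 2) L, orderOf u = n := by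
  rcases hn with hn | hn
  · classical
    obtain ⟨ζ, hζ⟩ := IsCyclic.exists_generator (α := Lˣ)
    have ho : orderOf ζ = Fintype.card L - 1 := by
      rw [orderOf_eq_card_of_forall_mem_zpowers hζ, Nat.card_eq_fintype_card, Fintype.card_units]
    have hpos : 0 < Fintype.card L - 1 := by
      have := Fintype.one_lt_card (α := L)
      omega
    obtain ⟨m, hm⟩ := hn
    refine ⟨H341.ThreeElts.dg L (ζ ^ m), ?_⟩
    rw [orderOf_injective _ H341.ThreeElts.dg_injective, orderOf_pow, ho, hm]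
    have hm0 : 0 < m := by
      rcases Nat.eq_zero_or_pos m with h | h
      · rw [h, mul_zero] at hm; omega
      · exact h
    rw [Nat.gcd_eq_right (Dvd.intro_left n rfl), Nat.mul_div_cancel _ hm0]
  · obtain ⟨a, s, ha, -⟩ := ClassicalGeometry.NonsplitTorus.exists_torus_TI L
    obtain ⟨m, hm⟩ := hn
    refine ⟨a ^ m, ?_⟩
    rw [orderOf_pow, ha, hm]
    have hm0 : 0 < m := by
      rcases Nat.eq_zero_or_pos m with h | h
      · rw [h, mul_zero] at hm; omega
      · exact h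
    rw [Nat.gcd_eq_right (Dvd.intro_left n rfl), Nat.mul_div_cancel _ hm0]

theorem zc {G : Type*} [Group G] (u : G) (a b : zpowers u) : a * b = b * a :=
  (zpowers_isMulCommutative u).is_comm.comm a b

/-- one block -/
theorem one_block {N : ℕ} (h : KH N K) {L : Type} [Field L] [Fintype L] (f : SpecialLinearGroup (Fin 2) L →* K)
    (h0 : ∀ a, f a = 1 → a ^ 2 = 1) (h27 : 27 ∣ Fintype.card L - 1 ∨ 27 ∣ Fintype.card L + 1) : False := by
  obtain ⟨u, hu⟩ := exists_order h27
  obtain ⟨h1, h2⟩ := hom h (A := zpowers u) (zc u) (f.comp (zpowers u).subtype) (by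
    rw [injective_iff_map_eq_one]
    rintro ⟨a, ha⟩ h1
    exact Subtype.ext (odd_of_sq (by decide) hu ha (h0 a h1))) (by rw [Nat.card_zpowers, hu])
  have := h2 ⟨u, mem_zpowers u⟩
  have h3 : u ^ 3 = 1 := congrArg Subtype.val this
  have := orderOf_dvd_of_pow_eq_one h3
  rw [hu] at this
  norm_num at this

/-- two blocks -/
theorem two_blocks {N : ℕ} (h : KH N K) {L L' : Type} [Field L] [Fintype L] [Field L'] [Fintype L']
    (f : SpecialLinearGroup (Fin 2) L →* K) (g : SpecialLinearGroup (Fin 2) L' →* K)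
    (hfg : ∀ a b, f a * g b = g b * f a) (hi : ∀ a b, f a * g b = 1 → a ^ 2 = 1 ∧ b ^ 2 = 1)
    (h9 : 9 ∣ Fintype.card L - 1 ∨ 9 ∣ Fintype.card L + 1) (h3 : ¬ 3 ∣ Fintype.card L') : False := by
  obtain ⟨u, hu⟩ := exists_order h9
  obtain ⟨v, hv⟩ := H341.ThreeElts.exists_three_SL2 h3
  obtain ⟨h1, h2⟩ := hom h (A := zpowers u × zpowers v × Unit)
    (fun a b => Prod.ext (zc u _ _) (Prod.ext (zc v _ _) rfl))
    (prod3 (f.comp (zpowers u).subtype) (g.comp (zpowers v).subtype) (1 : Unit →* K)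
      (fun a b => hfg _ _) (fun a b => by simp) (fun a b => by simp)) (by
    rw [injective_iff_map_eq_one]
    rintro ⟨⟨a, ha⟩, ⟨b, hb⟩, c⟩ h1
    rw [prod3_apply] at h1
    have h1' : f a * g b = 1 := by simpa using h1
    obtain ⟨h2, h3⟩ := hi a b h1'
    exact Prod.ext (Subtype.ext (odd_of_sq (by decide) hu ha h2))
      (Prod.ext (Subtype.ext (odd_of_sq (by decide) hv hb h3)) rfl)) (by
    rw [Nat.card_prod, Nat.card_prod, Nat.card_zpowers, Nat.card_zpowers, hu, hv]
    norm_num)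
  have := h2 (⟨u, mem_zpowers u⟩, 1, ())
  have h3 : u ^ 3 = 1 := congrArg (fun p => (p.1 : SpecialLinearGroup (Fin 2) L)) this
  have := orderOf_dvd_of_pow_eq_one h3
  rw [hu] at this
  norm_num at this

/-- the unipotent group -/
def un (L : Type) [Field L] : Multiplicative L →* SpecialLinearGroup (Fin 2) L where
  toFun x := ⟨!![1, Multiplicative.toAdd x; 0, 1], by rw [Matrix.det_fin_two_of]; ring⟩
  map_one' := by
    apply Subtype.ext
    change !![1, Multiplicative.toAdd (1 : Multiplicative L); 0, 1] = 1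
    rw [toAdd_one, Matrix.one_fin_two]
  map_mul' a b := by
    apply Subtype.ext
    change !![1, Multiplicative.toAdd (a * b); 0, 1] = !![1, Multiplicative.toAdd a; 0, 1] *
      !![1, Multiplicative.toAdd b; 0, 1]
    rw [Matrix.mul_fin_two, toAdd_mul]
    congr! 3 <;> simp [add_comm]

theorem un_coe {L : Type} [Field L] (x : L) : (un L (Multiplicative.ofAdd x)).1 = !![1, x; 0, 1] := rfl

theorem un_injective {L : Type} [Field L] : Function.Injective (un L) := by
  intro a b hab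
  have := congrArg (fun x : SpecialLinearGroup (Fin 2) L => x.1 0 1) hab
  exact this

theorem dg_un {L : Type} [Field L] [Fintype L] (a : Lˣ) (x : L) :
    H341.ThreeElts.dg L a * un L (Multiplicative.ofAdd x) * H341.ThreeElts.dg L a⁻¹ =
      un L (Multiplicative.ofAdd ((a : L) * (a : L) * x)) := by
  apply Subtype.ext
  change (H341.ThreeElts.dg L a).1 * (un L (Multiplicative.ofAdd x)).1 * (H341.ThreeElts.dg L a⁻¹).1 = _
  rw [un_coe, un_coe, H341.ThreeElts.dg_coe, H341.ThreeElts.dg_coe, Matrix.mul_fin_two, Matrix.mul_fin_two]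
  have ha : (a : L) ≠ 0 := a.ne_zero
  congr! 3 <;> simp <;> field_simp

/-- three blocks, `q = 1 mod 3` -/
theorem three_blocks_one {N : ℕ} (h : KH N K) {L : Type} [Field L] [Fintype L] (hq1 : Fintype.card L % 3 = 1)
    (f g k : SpecialLinearGroup (Fin 2) L →* K) (hfg : ∀ a b, f a * g b = g b * f a)
    (hfk : ∀ a b, f a * k b = k b * f a) (hgk : ∀ a b, g a * k b = k b * g a)
    (hi : ∀ a b c, f a * g b * k c = 1 → a ^ 2 = 1 ∧ b ^ 2 = 1 ∧ c ^ 2 = 1)
    (h0 : f (un L (Multiplicative.ofAdd 1)) ≠ 1) : False := by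
  have hq := Fintype.one_lt_card (α := L)
  obtain ⟨ζ, hζ⟩ : ∃ ζ : Lˣ, orderOf ζ = 3 := by
    classical
    have : Fact (Nat.Prime 3) := ⟨Nat.prime_three⟩
    apply exists_prime_orderOf_dvd_card
    rw [Fintype.card_units]
    omega
  have hd : orderOf (H341.ThreeElts.dg L ζ) = 3 := by
    rw [orderOf_injective _ H341.ThreeElts.dg_injective, hζ]
  set u := H341.ThreeElts.dg L ζ with hu
  let φ : zpowers u × zpowers u × zpowers u →* K := prod3 (f.comp (zpowers u).subtype) (g.comp (zpowers u).subtype)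
    (k.comp (zpowers u).subtype) (fun a b => hfg _ _) (fun a b => hfk _ _) (fun a b => hgk _ _)
  have hφ : Function.Injective φ := by
    rw [injective_iff_map_eq_one]
    rintro ⟨⟨a, ha⟩, ⟨b, hb⟩, ⟨c, hc⟩⟩ h1
    have h1' : f a * g b * k c = 1 := h1
    obtain ⟨h2, h3, h4⟩ := hi a b c h1'
    exact Prod.ext (Subtype.ext (odd_of_sq (by decide) hd ha h2))
      (Prod.ext (Subtype.ext (odd_of_sq (by decide) hd hb h3)) (Subtype.ext (odd_of_sq (by decide) hd hc h4)))
  have hW := h.sig φ.range (f.comp (un L)).range (by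
    rintro _ ⟨a, rfl⟩ _ ⟨b, rfl⟩
    rw [← map_mul, ← map_mul]
    congr 1
    exact Prod.ext (zc u _ _) (Prod.ext (zc u _ _) (zc u _ _))) (by
    rw [Nat.card_congr (MonoidHom.ofInjective hφ).toEquiv.symm, Nat.card_prod, Nat.card_prod, Nat.card_zpowers, hd])
    (by
      have h1 : Nat.card (f.comp (un L)).range ∣ Fintype.card L := by
        have := Subgroup.card_range_dvd (f.comp (un L))
        rwa [Nat.card_eq_fintype_card (α := Multiplicative L), Fintype.card_multiplicative] at this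
      refine Nat.Coprime.coprime_dvd_left h1 ?_
      exact ((Nat.Prime.coprime_iff_not_dvd Nat.prime_three).2 (by omega)).symm) (by
    have key : ∀ (m : ℤ) (x : L), ∃ y : L, u ^ m * un L (Multiplicative.ofAdd x) * (u ^ m)⁻¹ =
        un L (Multiplicative.ofAdd y) := by
      intro m x
      refine ⟨((ζ ^ m : Lˣ) : L) * ((ζ ^ m : Lˣ) : L) * x, ?_⟩
      rw [hu, ← map_zpow, ← map_inv]
      exact dg_un _ _
    rintro _ ⟨⟨⟨_, ⟨m, rfl⟩⟩, b, c⟩, rfl⟩ _ ⟨x, rfl⟩
    obtain ⟨y, hy⟩ := key m (Multiplicative.toAdd x)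
    refine ⟨Multiplicative.ofAdd y, ?_⟩
    change f (un L (Multiplicative.ofAdd y)) = f (u ^ m) * g b * k c * f (un L x) * (f (u ^ m) * g b * k c)⁻¹
    rw [← hy, map_mul, map_mul, map_inv]
    have e1 : k c * f (un L x) = f (un L x) * k c := (hfk _ _).symm
    have e2 : g b * f (un L x) = f (un L x) * g b := (hfg _ _).symm
    calc f (u ^ m) * f (un L (Multiplicative.ofAdd (Multiplicative.toAdd x))) * (f (u ^ m))⁻¹
        = f (u ^ m) * (f (un L x) * g b) * k c * (f (u ^ m) * g b * k c)⁻¹ := by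
          rw [ofAdd_toAdd]; group
      _ = f (u ^ m) * g b * (f (un L x) * k c) * (f (u ^ m) * g b * k c)⁻¹ := by rw [← e2]; group
      _ = f (u ^ m) * g b * k c * f (un L x) * (f (u ^ m) * g b * k c)⁻¹ := by rw [← e1]; group)
  have h5 : f (un L (Multiplicative.ofAdd 1)) = 1 := by
    have : f (un L (Multiplicative.ofAdd 1)) ∈ (f.comp (un L)).range := ⟨_, rfl⟩
    rw [hW] at this
    exact this
  exact h0 h5

/-- three blocks, `q = 2 mod 3` -/
theorem three_blocks_two {N : ℕ} (h : KH N K) {L : Type} [Field L] [Fintype L] (hq2 : Fintype.card L % 3 = 2)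
    (f g k : SpecialLinearGroup (Fin 2) L →* K) (hfg : ∀ a b, f a * g b = g b * f a)
    (hfk : ∀ a b, f a * k b = k b * f a) (hgk : ∀ a b, g a * k b = k b * g a)
    (hi : ∀ a b c, f a * g b * k c = 1 → a ^ 2 = 1 ∧ b ^ 2 = 1 ∧ c ^ 2 = 1) (h0 : ∀ a, f a = 1 → a = 1) :
    Fintype.card L = 2 := by
  obtain ⟨u, hu⟩ := exists_order (L := L) (n := Fintype.card L + 1) (Or.inr dvd_rfl)
  obtain ⟨v, hv⟩ := H341.ThreeElts.exists_three_SL2 (F := L) (by omega)
  obtain ⟨h1, -⟩ := hom h (A := zpowers u × zpowers v × zpowers v)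
    (fun a b => Prod.ext (zc u _ _) (Prod.ext (zc v _ _) (zc v _ _)))
    (prod3 (f.comp (zpowers u).subtype) (g.comp (zpowers v).subtype) (k.comp (zpowers v).subtype)
      (fun a b => hfg _ _) (fun a b => hfk _ _) (fun a b => hgk _ _)) (by
    rw [injective_iff_map_eq_one]
    rintro ⟨⟨a, ha⟩, ⟨b, hb⟩, ⟨c, hc⟩⟩ h1
    have h1' : f a * g b * k c = 1 := h1
    obtain ⟨h2, h3, h4⟩ := hi a b c h1'
    have hb' : b = 1 := odd_of_sq (by decide) hv hb h3
    have hc' : c = 1 := odd_of_sq (by decide) hv hc h4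
    subst hb' hc'
    rw [map_one, map_one, mul_one, mul_one] at h1'
    exact Prod.ext (Subtype.ext (h0 a h1')) (Prod.ext rfl rfl)) (by
    rw [Nat.card_prod, Nat.card_prod, Nat.card_zpowers, Nat.card_zpowers, hu, hv]
    have hd : 3 ∣ Fintype.card L + 1 := by omega
    obtain ⟨m, hm⟩ := hd
    exact ⟨m, by rw [hm]; ring⟩)
  rw [Nat.card_prod, Nat.card_prod, Nat.card_zpowers, Nat.card_zpowers, hu, hv] at h1
  omega

/-- three blocks -/
theorem three_blocks {N : ℕ} (h : KH N K) {L : Type} [Field L] [Fintype L] (h3 : ¬ 3 ∣ Fintype.card L)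
    (f g k : SpecialLinearGroup (Fin 2) L →* K) (hfg : ∀ a b, f a * g b = g b * f a)
    (hfk : ∀ a b, f a * k b = k b * f a) (hgk : ∀ a b, g a * k b = k b * g a)
    (hi : ∀ a b c, f a * g b * k c = 1 → a ^ 2 = 1 ∧ b ^ 2 = 1 ∧ c ^ 2 = 1) (h0 : ∀ a, f a = 1 → a = 1) :
    Fintype.card L = 2 := by
  by_cases hq1 : Fintype.card L % 3 = 1
  · exfalso
    refine three_blocks_one h hq1 f g k hfg hfk hgk hi fun h5 => ?_
    have h7 : (1 : L) = 0 := congrArg (fun x : SpecialLinearGroup (Fin 2) L => x.1 0 1) (h0 _ h5)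
    exact one_ne_zero h7
  · exact three_blocks_two h (by omega) f g k hfg hfk hgk hi h0

end Cfsg.Agent.H344.Blocks
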