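import Cfsg.Agent.H344.KillA

/-!
# Three commuting `SL₂`-blocks with central kernels (helper344)
-/

set_option autoImplicit false

namespace Cfsg.Agent.H344.Blocks4

open Matrix Subgroup Cfsg.Agent.H344.Wr Cfsg.Agent.H344.Blocks

universe u

variable {K : Type u} [Group K]

theorem four_of_comm {L : Type*} [Field L] {a : SpecialLinearGroup (Fin 2) L}
    (h : ∀ s, a * s * a⁻¹ * s⁻¹ ∈ center (SpecialLinearGroup (Fin 2) L)) : a ^ 4 = 1 := by
  have h2 : a ^ 2 ∈ center (SpecialLinearGroup (Fin 2) L) := by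
    rw [mem_center_iff]
    intro s
    set z := a * s * a⁻¹ * s⁻¹ with hz
    have hzc := h s
    rw [← hz] at hzc
    have hz2 : z ^ 2 = 1 := Cfsg.Agent.H356.SLTorus.sq_of_center hzc
    rw [mem_center_iff] at hzc
    have h1 : a * s * a⁻¹ = z * s := by rw [hz]; group
    have h3 : a * a * s * (a * a)⁻¹ = s := by
      calc a * a * s * (a * a)⁻¹ = a * (a * s * a⁻¹) * a⁻¹ := by group
        _ = a * z * s * a⁻¹ := by rw [h1]; group
        _ = z * (a * s * a⁻¹) := by rw [hzc a]; group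
        _ = z ^ 2 * s := by rw [h1, ← mul_assoc, ← pow_two]
        _ = s := by rw [hz2, one_mul]
    rw [pow_two]
    exact (mul_inv_eq_iff_eq_mul.1 h3).symm
  have h4 : (a ^ 2) ^ 2 = 1 := Cfsg.Agent.H356.SLTorus.sq_of_center h2
  rw [← pow_mul] at h4
  exact h4

theorem four_of {H : Type*} [Group H] {L : Type*} [Field L] (f : SpecialLinearGroup (Fin 2) L →* H)
    (hf : f.ker ≤ center _) {a : SpecialLinearGroup (Fin 2) L} (h : ∀ s, f a * f s = f s * f a) : a ^ 4 = 1 := by
  apply four_of_comm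
  intro s
  apply hf
  rw [MonoidHom.mem_ker, map_mul, map_mul, map_mul, map_inv, map_inv, h]
  group

/-- three commuting blocks modulo the centre -/
theorem hi {H G : Type*} [Group H] [Group G] {L L' L'' : Type*} [Field L] [Field L'] [Field L''] (π : H →* G)
    (hπ : π.ker ≤ center H)
    (f : SpecialLinearGroup (Fin 2) L →* H) (g : SpecialLinearGroup (Fin 2) L' →* H)
    (k : SpecialLinearGroup (Fin 2) L'' →* H) (hf : f.ker ≤ center _) (hg : g.ker ≤ center _)
    (hk : k.ker ≤ center _) (hfg : ∀ a b, f a * g b = g b * f a)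
    (hfk : ∀ a b, f a * k b = k b * f a) (hgk : ∀ a b, g a * k b = k b * g a) (a : SpecialLinearGroup (Fin 2) L)
    (b : SpecialLinearGroup (Fin 2) L') (c : SpecialLinearGroup (Fin 2) L'')
    (h : π (f a) * π (g b) * π (k c) = 1) : a ^ 4 = 1 ∧ b ^ 4 = 1 ∧ c ^ 4 = 1 := by
  have hz : f a * g b * k c ∈ center H := hπ (by rw [MonoidHom.mem_ker, map_mul, map_mul, h])
  rw [mem_center_iff] at hz
  refine ⟨four_of f hf fun s => ?_, four_of g hg fun s => ?_, four_of k hk fun s => ?_⟩
  · have h1 := hz (f s)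
    have e1 : f a * g b * k c * f s = f a * f s * (g b * k c) := by
      rw [mul_assoc (f a * g b), ← hfk, ← mul_assoc, mul_assoc (f a), ← hfg]
      group
    rw [e1] at h1
    have e2 : f s * (f a * g b * k c) = f s * f a * (g b * k c) := by group
    rw [e2] at h1
    exact (mul_right_cancel h1).symm
  · have h1 := hz (g s)
    have e1 : f a * g b * k c * g s = g b * g s * (f a * k c) := by
      rw [mul_assoc (f a * g b), ← hgk, hfg a b]
      calc g b * f a * (g s * k c) = g b * (f a * g s) * k c := by group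
        _ = _ := by rw [hfg]; group
    have e2 : g s * (f a * g b * k c) = g s * g b * (f a * k c) := by
      rw [hfg]; group
    rw [e1, e2] at h1
    exact (mul_right_cancel h1).symm
  · have h1 := hz (k s)
    have e1 : f a * g b * k c * k s = k c * k s * (f a * g b) := by
      have : f a * g b * (k c * k s) = k c * k s * (f a * g b) := by
        rw [← map_mul, mul_assoc, hgk, ← mul_assoc, hfk, mul_assoc]
      rw [← this]; group
    have e2 : k s * (f a * g b * k c) = k s * k c * (f a * g b) := by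
      rw [mul_assoc (f a), hgk, ← mul_assoc (f a), hfk]; group
    rw [e1, e2] at h1
    exact (mul_right_cancel h1).symm

theorem odd_of_four {G : Type*} [Group G] {a b : G} {n : ℕ} (hn : Odd n) (ha : orderOf a = n) (hb : b ∈ zpowers a)
    (h2 : b ^ 4 = 1) : b = 1 := by
  have h1 : orderOf b ∣ n := by rw [← ha]; exact orderOf_dvd_of_mem_zpowers hb
  have h3 : orderOf b ∣ 2 ^ 2 := orderOf_dvd_of_pow_eq_one h2
  have h4 : Nat.Coprime n (2 ^ 2) := Nat.Coprime.pow_right 2 (Nat.coprime_two_right.2 hn)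
  have h5 : orderOf b ∣ 1 := by
    rw [← h4]
    exact Nat.dvd_gcd h1 h3
  exact orderOf_eq_one_iff.1 (Nat.dvd_one.1 h5)

/-- three blocks, `q = 1 mod 3` for the first -/
theorem one {N : ℕ} (h : KH N K) {L L' L'' : Type} [Field L] [Fintype L] [Field L'] [Fintype L'] [Field L'']
    [Fintype L''] (hq1 : Fintype.card L % 3 = 1) (hq' : ¬ 3 ∣ Fintype.card L') (hq'' : ¬ 3 ∣ Fintype.card L'')
    (f : SpecialLinearGroup (Fin 2) L →* K) (g : SpecialLinearGroup (Fin 2) L' →* K)
    (k : SpecialLinearGroup (Fin 2) L'' →* K) (hfg : ∀ a b, f a * g b = g b * f a)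
    (hfk : ∀ a b, f a * k b = k b * f a) (hgk : ∀ a b, g a * k b = k b * g a)
    (hi : ∀ a b c, f a * g b * k c = 1 → a ^ 4 = 1 ∧ b ^ 4 = 1 ∧ c ^ 4 = 1)
    (h0 : f (un L (Multiplicative.ofAdd 1)) ≠ 1) : False := by
  have hq := Fintype.one_lt_card (α := L)
  obtain ⟨ζ, hζ⟩ : ∃ ζ : Lˣ, orderOf ζ = 3 := by
    classical
    have : Fact (Nat.Prime 3) := ⟨Nat.prime_three⟩
    apply exists_prime_orderOf_dvd_card
    rw [Fintype.card_units]
    omega
  have hd : orderOf (H341.ThreeElts.dg L ζ) = 3 := by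
    rw [orderOf_injective _ H341.ThreeElts.dg_injective, hζ]
  set u := H341.ThreeElts.dg L ζ with hu
  obtain ⟨v, hv⟩ := H341.ThreeElts.exists_three_SL2 hq'
  obtain ⟨w, hw⟩ := H341.ThreeElts.exists_three_SL2 hq''
  let φ : zpowers u × zpowers v × zpowers w →* K := prod3 (f.comp (zpowers u).subtype) (g.comp (zpowers v).subtype)
    (k.comp (zpowers w).subtype) (fun a b => hfg _ _) (fun a b => hfk _ _) (fun a b => hgk _ _)
  have hφ : Function.Injective φ := by
    rw [injective_iff_map_eq_one]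
    rintro ⟨⟨a, ha⟩, ⟨b, hb⟩, ⟨c, hc⟩⟩ h1
    have h1' : f a * g b * k c = 1 := h1
    obtain ⟨h2, h3, h4⟩ := hi a b c h1'
    exact Prod.ext (Subtype.ext (odd_of_four (by decide) hd ha h2))
      (Prod.ext (Subtype.ext (odd_of_four (by decide) hv hb h3)) (Subtype.ext (odd_of_four (by decide) hw hc h4)))
  have hW := h.sig φ.range (f.comp (un L)).range (by
    rintro _ ⟨a, rfl⟩ _ ⟨b, rfl⟩
    rw [← map_mul, ← map_mul]
    congr 1
    exact Prod.ext (zc u _ _) (Prod.ext (zc v _ _) (zc w _ _))) (by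
    rw [Nat.card_congr (MonoidHom.ofInjective hφ).toEquiv.symm, Nat.card_prod, Nat.card_prod, Nat.card_zpowers,
      Nat.card_zpowers, Nat.card_zpowers, hd, hv, hw])
    (by
      have h1 : Nat.card (f.comp (un L)).range ∣ Fintype.card L := by
        have := Subgroup.card_range_dvd (f.comp (un L))
        rwa [Nat.card_eq_fintype_card (α := Multiplicative L), Fintype.card_multiplicative] at this
      refine Nat.Coprime.coprime_dvd_left h1 ?_
      exact ((Nat.Prime.coprime_iff_not_dvd Nat.prime_three).2 (by omega)).symm) (by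
    have key : ∀ (m : ℤ) (x : L), ∃ y : L, u ^ m * un L (Multiplicative.ofAdd x) * (u ^ m)⁻¹ =
        un L (Multiplicative.ofAdd y) := by
      intro m x
      refine ⟨((ζ ^ m : Lˣ) : L) * ((ζ ^ m : Lˣ) : L) * x, ?_⟩
      rw [hu, ← map_zpow, ← map_inv]
      exact dg_un _ _
    rintro _ ⟨⟨⟨_, ⟨m, rfl⟩⟩, b, c⟩, rfl⟩ _ ⟨x, rfl⟩
    obtain ⟨y, hy⟩ := key m (Multiplicative.toAdd x)
    refine ⟨Multiplicative.ofAdd y, ?_⟩
    change f (un L (Multiplicative.ofAdd y)) = f (u ^ m) * g b * k c * f (un L x) * (f (u ^ m) * g b * k c)⁻¹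
    rw [← hy, map_mul, map_mul, map_inv]
    have e1 : k c * f (un L x) = f (un L x) * k c := (hfk _ _).symm
    have e2 : g b * f (un L x) = f (un L x) * g b := (hfg _ _).symm
    calc f (u ^ m) * f (un L (Multiplicative.ofAdd (Multiplicative.toAdd x))) * (f (u ^ m))⁻¹
        = f (u ^ m) * (f (un L x) * g b) * k c * (f (u ^ m) * g b * k c)⁻¹ := by
          rw [ofAdd_toAdd]; group
      _ = f (u ^ m) * g b * (f (un L x) * k c) * (f (u ^ m) * g b * k c)⁻¹ := by rw [← e2]; group
      _ = f (u ^ m) * g b * k c * f (un L x) * (f (u ^ m) * g b * k c)⁻¹ := by rw [← e1]; group)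
  have h5 : f (un L (Multiplicative.ofAdd 1)) = 1 := by
    have : f (un L (Multiplicative.ofAdd 1)) ∈ (f.comp (un L)).range := ⟨_, rfl⟩
    rw [hW] at this
    exact this
  exact h0 h5

/-- three blocks, `q = 2 mod 3` -/
theorem two {N : ℕ} (h : KH N K) {L : Type} [Field L] [Fintype L] (hq2 : Fintype.card L % 3 = 2)
    (f g k : SpecialLinearGroup (Fin 2) L →* K) (hfg : ∀ a b, f a * g b = g b * f a)
    (hfk : ∀ a b, f a * k b = k b * f a) (hgk : ∀ a b, g a * k b = k b * g a)
    (hi : ∀ a b c, f a * g b * k c = 1 → a ^ 4 = 1 ∧ b ^ 4 = 1 ∧ c ^ 4 = 1) (h0 : ∀ a, f a = 1 → a = 1) :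
    Fintype.card L = 2 := by
  obtain ⟨u, hu⟩ := exists_order (L := L) (n := Fintype.card L + 1) (Or.inr dvd_rfl)
  obtain ⟨v, hv⟩ := H341.ThreeElts.exists_three_SL2 (F := L) (by omega)
  obtain ⟨h1, -⟩ := hom h (A := zpowers u × zpowers v × zpowers v)
    (fun a b => Prod.ext (zc u _ _) (Prod.ext (zc v _ _) (zc v _ _)))
    (prod3 (f.comp (zpowers u).subtype) (g.comp (zpowers v).subtype) (k.comp (zpowers v).subtype)
      (fun a b => hfg _ _) (fun a b => hfk _ _) (fun a b => hgk _ _)) (by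
    rw [injective_iff_map_eq_one]
    rintro ⟨⟨a, ha⟩, ⟨b, hb⟩, ⟨c, hc⟩⟩ h1
    have h1' : f a * g b * k c = 1 := h1
    obtain ⟨h2, h3, h4⟩ := hi a b c h1'
    have hb' : b = 1 := odd_of_four (by decide) hv hb h3
    have hc' : c = 1 := odd_of_four (by decide) hv hc h4
    subst hb' hc'
    rw [map_one, map_one, mul_one, mul_one] at h1'
    exact Prod.ext (Subtype.ext (h0 a h1')) (Prod.ext rfl rfl)) (by
    rw [Nat.card_prod, Nat.card_prod, Nat.card_zpowers, Nat.card_zpowers, hu, hv]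
    have hd : 3 ∣ Fintype.card L + 1 := by omega
    obtain ⟨m, hm⟩ := hd
    exact ⟨m, by rw [hm]; ring⟩)
  rw [Nat.card_prod, Nat.card_prod, Nat.card_zpowers, Nat.card_zpowers, hu, hv] at h1
  omega

end Cfsg.Agent.H344.Blocks4
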