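import Cfsg.Agent.H344.Reduce

/-!
# The number of conjugates of `⟨x⟩` is `1 mod 3` (helper344)
-/

set_option autoImplicit false

namespace Cfsg.Agent.H344.Count

open Subgroup Cfsg.Agent.H344.Wr Cfsg.Agent.H344.Reduce

universe u

variable {G : Type u} [Group G]

theorem eq_or_inv {x y : G} (hx : orderOf x = 3) (h : y ∈ zpowers x) : y = 1 ∨ y = x ∨ y = x⁻¹ := by
  obtain ⟨k, rfl⟩ := h
  have h3 : x ^ (3 : ℤ) = 1 := by
    have := pow_orderOf_eq_one x
    rw [hx] at this
    exact_mod_cast this
  change x ^ k = 1 ∨ x ^ k = x ∨ x ^ k = x⁻¹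
  have h1 : x ^ k = x ^ (k % 3) := by
    conv_lhs => rw [← Int.emod_add_mul_ediv k 3, zpow_add, zpow_mul, h3, one_zpow, mul_one]
  rw [h1]
  have h7 : k % 3 = 0 ∨ k % 3 = 1 ∨ k % 3 = 2 := by omega
  rcases h7 with h7 | h7 | h7
  · left; rw [h7, zpow_zero]
  · right; left; rw [h7, zpow_one]
  · right; right
    rw [h7, eq_inv_iff_mul_eq_one, ← zpow_add_one]
    exact h3

theorem conj_eq_or {x g : G} (hx : orderOf x = 3) (h : g * x * g⁻¹ ∈ zpowers x) :
    g * x * g⁻¹ = x ∨ g * x * g⁻¹ = x⁻¹ := by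
  rcases eq_or_inv hx h with h1 | h1 | h1
  · exfalso
    have h2 : x = 1 := by
      have : x = g⁻¹ * (g * x * g⁻¹) * g := by group
      rw [this, h1]; group
    rw [h2, orderOf_one] at hx
    norm_num at hx
  · exact Or.inl h1
  · exact Or.inr h1

/-- an element of a 3-group normalizing `⟨x⟩` centralizes `x` -/
theorem comm_of_three {x s : G} (hx : orderOf x = 3) {k : ℕ} (hs : s ^ 3 ^ k = 1) (h : s * x * s⁻¹ ∈ zpowers x) :
    s * x = x * s := by
  rcases conj_eq_or hx h with h1 | h1
  · exact mul_inv_eq_iff_eq_mul.1 h1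
  · have h2 : Commute (s ^ 2) x := by
      have : s ^ 2 * x * (s ^ 2)⁻¹ = x := by
        calc s ^ 2 * x * (s ^ 2)⁻¹ = s * (s * x * s⁻¹) * s⁻¹ := by rw [pow_two]; group
          _ = s * x⁻¹ * s⁻¹ := by rw [h1]
          _ = (s * x * s⁻¹)⁻¹ := by group
          _ = x := by rw [h1, inv_inv]
      exact mul_inv_eq_iff_eq_mul.1 this
    have h3 : Odd (3 ^ k) := Odd.pow (by decide)
    obtain ⟨m, hm⟩ := h3
    have h4 : s = (s ^ 2) ^ (m + 1) := by
      rw [← pow_mul]
      have : 2 * (m + 1) = 3 ^ k + 1 := by omega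
      rw [this, pow_succ, hs, one_mul]
    rw [h4]
    exact (h2.pow_left _).eq

/-- **the number of conjugates of `⟨x⟩`** -/
theorem index_mod [Finite G] {S : Sylow 3 G} {J : Subgroup G} {x : G} (h : Hyp (S : Subgroup G) J x) :
    (normalizer (zpowers x : Set G)).index % 3 = 1 := by
  have f3 : Fact (Nat.Prime 3) := ⟨Nat.prime_three⟩
  set Nx := normalizer (zpowers x : Set G) with hNx
  have h1 := S.isPGroup'.card_modEq_card_fixedPoints (G ⧸ Nx)
  have h2 : Nat.card (MulAction.fixedPoints (S : Subgroup G) (G ⧸ Nx)) = 1 := by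
    rw [Nat.card_eq_one_iff_unique]
    have hx1 : ((1 : G) : G ⧸ Nx) ∈ MulAction.fixedPoints (S : Subgroup G) (G ⧸ Nx) := by
      intro s
      change (((s : G) * 1 : G) : G ⧸ Nx) = ((1 : G) : G ⧸ Nx)
      rw [mul_one, eq_comm, QuotientGroup.eq, inv_one, one_mul, hNx]
      apply mem_normalizer_fintype
      rintro _ ⟨m, rfl⟩
      refine ⟨m, ?_⟩
      have : Commute x s := h.xc s s.2
      change x ^ m = (s : G) * x ^ m * (s : G)⁻¹
      rw [← (this.zpow_left m).eq, mul_inv_cancel_right]
    refine ⟨⟨?_⟩, ⟨⟨_, hx1⟩⟩⟩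
    have key : ∀ q : MulAction.fixedPoints (S : Subgroup G) (G ⧸ Nx), q.1 = ((1 : G) : G ⧸ Nx) := by
      rintro ⟨q, hq⟩
      obtain ⟨g, rfl⟩ := QuotientGroup.mk_surjective q
      change (g : G ⧸ Nx) = ((1 : G) : G ⧸ Nx)
      rw [eq_comm, QuotientGroup.eq, inv_one, one_mul]
      set y := g * x * g⁻¹ with hy
      have hyo : orderOf y = 3 := by
        have := MulEquiv.orderOf_eq (MulAut.conj g) x
        rw [MulAut.conj_apply] at this
        rw [hy, this, h.ord]
      -- `S` centralizes `y`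
      have hS : ∀ s ∈ (S : Subgroup G), s * y = y * s := by
        intro s hs
        have h3 := hq ⟨s, hs⟩
        change ((s * g : G) : G ⧸ Nx) = (g : G ⧸ Nx) at h3
        rw [eq_comm, QuotientGroup.eq, hNx] at h3
        have h4 := (mem_normalizer_iff.1 h3 x).1 (mem_zpowers x)
        obtain ⟨m, hm⟩ := h4
        obtain ⟨k, hk⟩ := S.isPGroup' ⟨s, hs⟩
        refine comm_of_three hyo (k := k) (congrArg Subtype.val hk) ⟨m, ?_⟩
        change y ^ m = s * y * s⁻¹
        change x ^ m = g⁻¹ * (s * g) * x * (g⁻¹ * (s * g))⁻¹ at hm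
        have h5 : y ^ m = g * x ^ m * g⁻¹ := by
          rw [hy]
          have := map_zpow (MulAut.conj g) x m
          rw [MulAut.conj_apply, MulAut.conj_apply] at this
          exact this.symm
        rw [h5, hm, hy]
        group
      have hyS : y ∈ S := by
        apply mem_sylow S
        · exact IsPGroup.of_card (n := 1) (by rw [Nat.card_zpowers, hyo, pow_one])
        · rw [mem_normalizer_iff]
          intro s
          constructor
          · intro hs
            rw [← hS s hs]
            simpa using hs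
          · intro hs
            have h9 := hS _ hs
            have h10 : y * s * y⁻¹ = s := by
              have : y * s = y * (y * s * y⁻¹) := by rw [← h9]; group
              exact (mul_left_cancel this).symm
            rwa [h10] at hs
      have h6 := h.cen y hyS fun s hs => (hS s hs).symm
      have h7 := zpowers_eq_of_mem h.ord hyo h6
      rw [hNx]
      apply mem_normalizer_fintype
      rintro _ ⟨m, rfl⟩
      change g * x ^ m * g⁻¹ ∈ zpowers x
      have h5 : g * x ^ m * g⁻¹ = y ^ m := by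
        rw [hy]
        have := map_zpow (MulAut.conj g) x m
        rw [MulAut.conj_apply, MulAut.conj_apply] at this
        exact this
      rw [h5, ← h7]
      exact zpow_mem (mem_zpowers y) m
    intro q q'
    exact Subtype.ext ((key q).trans (key q').symm)
  rw [h2] at h1
  exact h1

/-- the normalizer of `⟨x⟩` when `x` is not conjugate to its inverse -/
theorem normalizer_eq {x : G} (hx : orderOf x = 3) (h : ∀ g : G, g * x * g⁻¹ ≠ x⁻¹) :
    normalizer (zpowers x : Set G) = centralizer ({x} : Set G) := by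
  apply le_antisymm
  · intro g hg
    rw [mem_centralizer_singleton_iff]
    rcases conj_eq_or hx ((mem_normalizer_iff.1 hg x).1 (mem_zpowers x)) with h1 | h1
    · exact mul_inv_eq_iff_eq_mul.1 h1
    · exact absurd h1 (h g)
  · intro g hg
    rw [mem_centralizer_singleton_iff] at hg
    rw [mem_normalizer_iff]
    intro y
    constructor
    · rintro ⟨m, rfl⟩
      refine ⟨m, ?_⟩
      change x ^ m = g * x ^ m * g⁻¹
      rw [((show Commute g x from hg).zpow_right m).eq, mul_inv_cancel_right]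
    · rintro ⟨m, hm⟩
      refine ⟨m, ?_⟩
      change x ^ m = g * y * g⁻¹ at hm
      change x ^ m = y
      have h1 : y = g⁻¹ * x ^ m * g := by rw [hm]; group
      rw [h1, mul_assoc, ((show Commute g x from hg).zpow_right m).symm.eq]
      group

/-- the normalizer of `⟨x⟩` when `x` is conjugate to its inverse -/
theorem card_normalizer [Finite G] {x : G} (hx : orderOf x = 3) (h : ∃ g : G, g * x * g⁻¹ = x⁻¹) :
    Nat.card (normalizer (zpowers x : Set G)) = 2 * Nat.card (centralizer ({x} : Set G)) := by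
  obtain ⟨g, hg⟩ := h
  have hx1 : x ≠ x⁻¹ := by
    intro h1
    have h2 : x ^ 2 = 1 := by
      rw [pow_two]
      nth_rewrite 1 [h1]
      exact inv_mul_cancel x
    have h3 := orderOf_dvd_of_pow_eq_one h2
    rw [hx] at h3
    norm_num at h3
  have hgN : g ∈ normalizer (zpowers x : Set G) := by
    apply mem_normalizer_fintype
    rintro _ ⟨m, rfl⟩
    refine ⟨-m, ?_⟩
    change x ^ (-m) = g * x ^ m * g⁻¹
    have := map_zpow (MulAut.conj g) x m
    rw [MulAut.conj_apply, MulAut.conj_apply] at this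
    rw [this, hg, inv_zpow, zpow_neg]
  have hCN : centralizer ({x} : Set G) ≤ normalizer (zpowers x : Set G) := by
    intro c hc
    rw [mem_centralizer_singleton_iff] at hc
    apply mem_normalizer_fintype
    rintro _ ⟨m, rfl⟩
    refine ⟨m, ?_⟩
    change x ^ m = c * x ^ m * c⁻¹
    rw [((show Commute c x from hc).zpow_right m).eq, mul_inv_cancel_right]
  have hmem : ∀ b : G, b ∈ centralizer ({x} : Set G) ↔ b * x * b⁻¹ = x := by
    intro b
    rw [mem_centralizer_singleton_iff, mul_inv_eq_iff_eq_mul]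
  have hidx : (centralizer ({x} : Set G)).relIndex (normalizer (zpowers x : Set G)) = 2 := by
    rw [relIndex, index_eq_two_iff]
    refine ⟨⟨g, hgN⟩, ?_⟩
    rintro ⟨b, hb⟩
    rw [mem_subgroupOf, mem_subgroupOf, hmem, hmem]
    change Xor (b * g * x * (b * g)⁻¹ = x) (b * x * b⁻¹ = x)
    have e : b * g * x * (b * g)⁻¹ = (b * x * b⁻¹)⁻¹ := by
      calc b * g * x * (b * g)⁻¹ = b * (g * x * g⁻¹) * b⁻¹ := by group
        _ = b * x⁻¹ * b⁻¹ := by rw [hg]
        _ = _ := by group
    rw [e]
    rcases conj_eq_or hx ((mem_normalizer_iff.1 hb x).1 (mem_zpowers x)) with h1 | h1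
    · right
      rw [h1]
      exact ⟨rfl, fun h => hx1 h.symm⟩
    · left
      rw [h1, inv_inv]
      exact ⟨rfl, fun h => hx1 h.symm⟩
  have := Wr.card_mul_relIndex hCN
  rw [hidx] at this
  exact this.symm

/-- **reality and the order of the group** -/
theorem card_mod [Finite G] {S : Sylow 3 G} {J : Subgroup G} {x : G} (h : Hyp (S : Subgroup G) J x) {n : ℕ}
    (hC : Nat.card (centralizer ({x} : Set G)) = 81 * n) :
    ((∀ g : G, g * x * g⁻¹ ≠ x⁻¹) → ∃ i, i % 3 = 1 ∧ Nat.card G = 81 * n * i) ∧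
    ((∃ g : G, g * x * g⁻¹ = x⁻¹) → ∃ i, i % 3 = 1 ∧ Nat.card G = 81 * n * 2 * i) := by
  have h1 := (normalizer (zpowers x : Set G)).card_mul_index
  refine ⟨fun h2 => ⟨_, index_mod h, ?_⟩, fun h2 => ⟨_, index_mod h, ?_⟩⟩
  · rw [← h1, normalizer_eq h.ord h2, hC]
  · rw [← h1, card_normalizer h.ord h2, hC]
    ring

end Cfsg.Agent.H344.Count
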