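import Cfsg.Agent.H672.Four.Interface

/-!
# The index of the centralizer of an automorphism in `Inn S ⟨x⟩` (helper344, task 2424 of helper672)
-/

set_option autoImplicit false

namespace Cfsg.Agent.H344.FactOutRow

open Cfsg Cfsg.Agent.H672.Four

universe u

/-- Indices: `C` contains a supplement of the normal subgroup `K`. -/
theorem index_eq {H : Type*} [Group H] [Finite H] (K C : Subgroup H) [K.Normal] (h : C ⊔ K = ⊤) :
    C.index = C.relIndex K := by
  have h1 : K.relIndex C = K.index := by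
    have := Subgroup.relIndex_sup_right (H := C) (K := K)
    rw [h, Subgroup.relIndex_top_right] at this
    exact this.symm
  have h2 : C.relIndex (K ⊓ ⊤) * K.relIndex ⊤ = (C ⊓ K).relIndex ⊤ := Subgroup.relIndex_inf_mul_relIndex C K ⊤
  have h3 : K.relIndex (C ⊓ ⊤) * C.relIndex ⊤ = (K ⊓ C).relIndex ⊤ := Subgroup.relIndex_inf_mul_relIndex K C ⊤
  rw [inf_top_eq, Subgroup.relIndex_top_right] at h2 h3
  rw [h1, inf_comm, ← h2, mul_comm] at h3
  exact Nat.eq_of_mul_eq_mul_right (Nat.pos_of_ne_zero Subgroup.index_ne_zero_of_finite) h3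

/-- conjugation by `x` of an inner automorphism -/
theorem conj_conj {S : Type u} [Group S] (x : MulAut S) (s : S) :
    x * MulAut.conj s * x⁻¹ = MulAut.conj (x s) := by
  ext y
  change x (s * x⁻¹ y * s⁻¹) = x s * y * (x s)⁻¹
  rw [map_mul, map_mul, map_inv]
  congr 2
  exact MulEquiv.apply_symm_apply x y

/-- the index of the centralizer of `x` in `Inn S ⟨x⟩` -/
theorem index_cent {S : Type u} [Group S] [Finite S] (hZ : Subgroup.center S = ⊥) (x : MulAut S)
    (H : Subgroup (MulAut S)) (hH : H = (MulAut.conj : S →* MulAut S).range ⊔ Subgroup.zpowers x) (hx : x ∈ H) :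
    (Subgroup.centralizer ({(⟨x, hx⟩ : H)} : Set H)).index = (FixA x).index := by
  have hn : ((MulAut.conj : S →* MulAut S).range).Normal := by
    refine ⟨?_⟩
    rintro _ ⟨s, rfl⟩ g
    exact ⟨g s, (conj_conj g s).symm⟩
  have hmem : ∀ s : S, MulAut.conj s ∈ H := fun s => by
    rw [hH]
    exact Subgroup.mem_sup_left ⟨s, rfl⟩
  let f : S →* H := (MulAut.conj : S →* MulAut S).codRestrict H hmem
  have hfr : f.range = ((MulAut.conj : S →* MulAut S).range).subgroupOf H := by
    ext ⟨a, ha⟩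
    rw [Subgroup.mem_subgroupOf]
    constructor
    · rintro ⟨s, hs⟩
      exact ⟨s, congrArg Subtype.val hs⟩
    · rintro ⟨s, hs⟩
      exact ⟨s, Subtype.ext hs⟩
  have hfn : f.range.Normal := by
    rw [hfr]
    infer_instance
  have hsup : Subgroup.centralizer ({(⟨x, hx⟩ : H)} : Set H) ⊔ f.range = ⊤ := by
    rw [hfr, eq_top_iff]
    have h1 : Subgroup.zpowers (⟨x, hx⟩ : H) ≤ Subgroup.centralizer ({(⟨x, hx⟩ : H)} : Set H) := by
      rw [Subgroup.zpowers_le, Subgroup.mem_centralizer_singleton_iff]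
    refine le_trans ?_ (sup_le_sup_right h1 _)
    have h2 : Subgroup.zpowers (⟨x, hx⟩ : H) = (Subgroup.zpowers x).subgroupOf H := by
      ext ⟨a, ha⟩
      rw [Subgroup.mem_subgroupOf, Subgroup.mem_zpowers_iff, Subgroup.mem_zpowers_iff]
      constructor
      · rintro ⟨k, hk⟩
        exact ⟨k, congrArg Subtype.val hk⟩
      · rintro ⟨k, hk⟩
        exact ⟨k, Subtype.ext hk⟩
    rw [h2, ← Subgroup.subgroupOf_sup, sup_comm, ← hH]
    · rw [Subgroup.subgroupOf_self]
    · rw [Subgroup.zpowers_le]; exact hx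
    · rw [hH]; exact le_sup_left
  rw [index_eq f.range _ hsup, ← Subgroup.index_comap]
  congr 1
  ext s
  rw [Subgroup.mem_comap, Subgroup.mem_centralizer_singleton_iff, mem_FixA]
  have h3 : (f s * ⟨x, hx⟩ = ⟨x, hx⟩ * f s) ↔ x * MulAut.conj s * x⁻¹ = MulAut.conj s := by
    rw [mul_inv_eq_iff_eq_mul, Subtype.ext_iff]
    exact eq_comm
  rw [h3, conj_conj]
  constructor
  · intro h4
    have h5 : (x s)⁻¹ * s ∈ Subgroup.center S := by
      have h6 : MulAut.conj ((x s)⁻¹ * s) = 1 := by
        rw [map_mul, map_inv, h4, inv_mul_cancel]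
      rw [Subgroup.mem_center_iff]
      intro g
      have h7 := DFunLike.congr_fun h6 g
      rw [MulAut.conj_apply, MulAut.one_apply, mul_inv_eq_iff_eq_mul] at h7
      exact h7.symm
    rw [hZ, Subgroup.mem_bot, inv_mul_eq_one] at h5
    exact h5
  · intro h4
    rw [h4]

end Cfsg.Agent.H344.FactOutRow
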