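import Cfsg.Agent.H344.KillA

/-!
# `A_10`, `A_11` and the property `KH` (helper344)
-/

set_option autoImplicit false

namespace Cfsg.Agent.H344.KillAlt

open Subgroup Cfsg Cfsg.Agent.H344.Wr Cfsg.Agent.H356 Cfsg.Agent.H344.KillA

variable {N : ℕ}

/-- an abelian group of order 27 normalizing a four-group -/
theorem kill {K : Type*} [Group K] [Finite K] (h : KH N K) {x y z u v : K} (hx : x ^ 3 = 1) (hy : y ^ 3 = 1) (hz : z ^ 3 = 1)
    (hxy : x * y = y * x) (hxz : x * z = z * x) (hyz : y * z = z * y)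
    (hi : ∀ a b c : ℕ, a < 3 → b < 3 → c < 3 → x ^ a * y ^ b * z ^ c = 1 → a = 0 ∧ b = 0 ∧ c = 0)
    (hu : u * u = 1) (hv : v * v = 1) (huv : u * v = v * u) (hu1 : u ≠ 1) (xu : x * u * x⁻¹ = v)
    (xv : x * v * x⁻¹ = u * v) (yu : y * u = u * y) (yv : y * v = v * y) (zu : z * u = u * z) (zv : z * v = v * z) :
    False := by
  obtain ⟨h1, h2⟩ := Diag.card_three hx hy hz hxy hxz hyz hi
  have hW : ∀ w ∈ closure ({u, v} : Set K), w * w = 1 ∧ u * w = w * u ∧ v * w = w * v := by
    intro w hw
    induction hw using closure_induction with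
    | mem w hw =>
      rcases hw with rfl | rfl
      · exact ⟨hu, rfl, huv.symm⟩
      · exact ⟨hv, huv, rfl⟩
    | one => exact ⟨one_mul 1, by rw [one_mul, mul_one], by rw [one_mul, mul_one]⟩
    | mul a b ha hb iha ihb =>
      refine ⟨?_, by rw [← mul_assoc, iha.2.1, mul_assoc, ihb.2.1, mul_assoc],
        by rw [← mul_assoc, iha.2.2, mul_assoc, ihb.2.2, mul_assoc]⟩
      have hab : a * b = b * a := by
        have : ∀ w ∈ closure ({u, v} : Set K), w * b = b * w := by
          intro w hw
          induction hw using closure_induction with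
          | mem w hw =>
            rcases hw with rfl | rfl
            · exact ihb.2.1
            · exact ihb.2.2
          | one => rw [one_mul, mul_one]
          | mul c d _ _ hc hd => rw [mul_assoc, hd, ← mul_assoc, hc, mul_assoc]
          | inv c _ hc => rw [inv_mul_eq_iff_eq_mul, ← mul_assoc, hc, mul_assoc, mul_inv_cancel, mul_one]
        exact this a ha
      calc a * b * (a * b) = a * (b * a) * b := by group
        _ = a * a * (b * b) := by rw [← hab]; group
        _ = 1 := by rw [iha.1, ihb.1, one_mul]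
    | inv a _ iha =>
      have h3 : a⁻¹ = a := inv_eq_of_mul_eq_one_left iha.1
      rw [h3]
      exact iha
  have hmu : u ∈ closure ({u, v} : Set K) := subset_closure (Or.inl rfl)
  have hmv : v ∈ closure ({u, v} : Set K) := subset_closure (Or.inr rfl)
  have hp : IsPGroup 2 (closure ({u, v} : Set K)) := by
    intro w
    refine ⟨1, Subtype.ext ?_⟩
    rw [pow_one, pow_two]
    exact (hW w.1 w.2).1
  have hn : ∀ a : K, (a * u * a⁻¹ ∈ closure ({u, v} : Set K)) → (a * v * a⁻¹ ∈ closure ({u, v} : Set K)) →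
      ∀ w ∈ closure ({u, v} : Set K), a * w * a⁻¹ ∈ closure ({u, v} : Set K) := by
    intro a hau hav w hw
    induction hw using closure_induction with
    | mem w hw =>
      rcases hw with rfl | rfl
      · exact hau
      · exact hav
    | one => rw [mul_one, mul_inv_cancel]; exact one_mem _
    | mul c d _ _ hc hd =>
      have : a * (c * d) * a⁻¹ = a * c * a⁻¹ * (a * d * a⁻¹) := by group
      rw [this]
      exact mul_mem hc hd
    | inv c _ hc =>
      have : a * c⁻¹ * a⁻¹ = (a * c * a⁻¹)⁻¹ := by group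
      rw [this]
      exact inv_mem hc
  have hnn : ∀ a : K, a ^ 3 = 1 → (a * u * a⁻¹ ∈ closure ({u, v} : Set K)) →
      (a * v * a⁻¹ ∈ closure ({u, v} : Set K)) → a ∈ normalizer (closure ({u, v} : Set K) : Set K) := by
    intro a ha hau hav
    rw [mem_normalizer_iff]
    intro w
    refine ⟨hn a hau hav w, fun hw => ?_⟩
    have h3 := hn a hau hav _ (hn a hau hav _ hw)
    have h4 : a * (a * (a * w * a⁻¹) * a⁻¹) * a⁻¹ = a ^ 3 * w * (a ^ 3)⁻¹ := by
      rw [pow_succ, pow_two]; group
    rw [h4, ha, one_mul, inv_one, mul_one] at h3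
    exact h3
  have hcl : zpowers x ⊔ zpowers y ⊔ zpowers z ≤ normalizer (closure ({u, v} : Set K) : Set K) := by
    refine sup_le (sup_le ?_ ?_) ?_
    · rw [zpowers_le]
      exact hnn x hx (by rw [xu]; exact hmv) (by rw [xv]; exact mul_mem hmu hmv)
    · rw [zpowers_le]
      exact hnn y hy (by rw [yu, mul_inv_cancel_right]; exact hmu) (by rw [yv, mul_inv_cancel_right]; exact hmv)
    · rw [zpowers_le]
      exact hnn z hz (by rw [zu, mul_inv_cancel_right]; exact hmu) (by rw [zv, mul_inv_cancel_right]; exact hmv)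
  have h5 := h.sig _ (closure ({u, v} : Set K)) h1 h2 (by
    obtain ⟨k, hk⟩ := hp.exists_card_eq
    rw [hk]
    exact Nat.Coprime.pow_left k (by norm_num)) (fun a ha w hw => (mem_normalizer_iff.1 (hcl ha) w).1 hw)
  exact hu1 (by rw [h5] at hmu; exact hmu)

open Equiv

/-- a permutation of sign 1 -/
abbrev mk {n : ℕ} (p : Perm (Fin n)) (h : Perm.sign p = 1 := by decide) : ↥(alternatingGroup (Fin n)) :=
  ⟨p, Perm.mem_alternatingGroup.2 h⟩

theorem alt10 (h : KH N ↥(alternatingGroup (Fin 10))) : False :=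
  kill h (x := mk (swap 0 1 * swap 1 2)) (y := mk (swap 3 4 * swap 4 5)) (z := mk (swap 6 7 * swap 7 8))
    (u := mk (swap 0 1 * swap 2 9)) (v := mk (swap 1 2 * swap 0 9)) (Subtype.ext (by decide))
    (Subtype.ext (by decide)) (Subtype.ext (by decide)) (Subtype.ext (by decide)) (Subtype.ext (by decide))
    (Subtype.ext (by decide))
    (by
      intro a b c ha hb hc h1
      have h2 : ∀ a b c : Fin 3, ((swap 0 1 * swap 1 2 : Perm (Fin 10)) ^ (a : ℕ) * (swap 3 4 * swap 4 5) ^ (b : ℕ) *
        (swap 6 7 * swap 7 8) ^ (c : ℕ) = 1) → a = 0 ∧ b = 0 ∧ c = 0 := by decide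
      have h3 := h2 ⟨a, ha⟩ ⟨b, hb⟩ ⟨c, hc⟩ (congrArg Subtype.val h1)
      simpa using h3)
    (Subtype.ext (by decide)) (Subtype.ext (by decide)) (Subtype.ext (by decide))
    (fun h1 => absurd (congrArg Subtype.val h1) (by decide)) (Subtype.ext (by decide)) (Subtype.ext (by decide))
    (Subtype.ext (by decide)) (Subtype.ext (by decide)) (Subtype.ext (by decide)) (Subtype.ext (by decide))

theorem alt11 (h : KH N ↥(alternatingGroup (Fin 11))) : False :=
  kill h (x := mk (swap 0 1 * swap 1 2)) (y := mk (swap 3 4 * swap 4 5)) (z := mk (swap 6 7 * swap 7 8))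
    (u := mk (swap 0 1 * swap 2 9)) (v := mk (swap 1 2 * swap 0 9)) (Subtype.ext (by decide))
    (Subtype.ext (by decide)) (Subtype.ext (by decide)) (Subtype.ext (by decide)) (Subtype.ext (by decide))
    (Subtype.ext (by decide))
    (by
      intro a b c ha hb hc h1
      have h2 : ∀ a b c : Fin 3, ((swap 0 1 * swap 1 2 : Perm (Fin 11)) ^ (a : ℕ) * (swap 3 4 * swap 4 5) ^ (b : ℕ) *
        (swap 6 7 * swap 7 8) ^ (c : ℕ) = 1) → a = 0 ∧ b = 0 ∧ c = 0 := by decide
      have h3 := h2 ⟨a, ha⟩ ⟨b, hb⟩ ⟨c, hc⟩ (congrArg Subtype.val h1)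
      simpa using h3)
    (Subtype.ext (by decide)) (Subtype.ext (by decide)) (Subtype.ext (by decide))
    (fun h1 => absurd (congrArg Subtype.val h1) (by decide)) (Subtype.ext (by decide)) (Subtype.ext (by decide))
    (Subtype.ext (by decide)) (Subtype.ext (by decide)) (Subtype.ext (by decide)) (Subtype.ext (by decide))

end Cfsg.Agent.H344.KillAlt
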