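import Cfsg.Agent.H344.KillB
import Cfsg.Agent.LieExceptional.CyclicSylow

/-!
# `PSL_6(2)`, `PSL_7(2)`, `A_10`, `A_11` and the property `KH` (helper344)
-/

set_option autoImplicit false

namespace Cfsg.Agent.H344.KillC

open Matrix Subgroup Cfsg Cfsg.Agent.H344.Wr Cfsg.Agent.H356 Cfsg.Agent.H344.KillA Cfsg.Agent.H344.Blocks

variable {N : ℕ}

/-- no elements of order 63 -/
theorem sixtythree {K : Type*} [Group K] (h : KH N K) (hN : N ∣ 648) {w : K} (hw : orderOf w = 63) : False := by
  have h1 : orderOf (w ^ 21) = 3 := by rw [orderOf_pow' w (by norm_num), hw]; norm_num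
  have h2 : orderOf (w ^ 7) = 9 := by rw [orderOf_pow' w (by norm_num), hw]; norm_num
  have h3 := (h.nine (w ^ 21) (w ^ 7) h1 h2 (by rw [← pow_add, ← pow_add, add_comm])).trans hN
  have h4 : orderOf (w ^ 9) = 7 := by rw [orderOf_pow' w (by norm_num), hw]; norm_num
  have h5 : w ^ 9 ∈ centralizer ({w ^ 21} : Set K) := by
    rw [mem_centralizer_singleton_iff, ← pow_add, ← pow_add, add_comm]
  have h6 := Subgroup.orderOf_dvd_natCard _ h5
  rw [h4] at h6
  exact absurd (h6.trans h3) (by norm_num)

theorem unit_eq_one {F : Type*} [Field F] [Fintype F] (h2 : Fintype.card F = 2) {r : F} (hr : r ≠ 0) : r = 1 := by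
  have h1 := FiniteField.pow_card_sub_one_eq_one r hr
  rw [h2] at h1
  simpa using h1

theorem exists_sixtythree {F : Type} [Field F] [Fintype F] (h2 : Fintype.card F = 2) :
    ∃ w : SpecialLinearGroup (Fin 6) F, orderOf w = 63 := by
  obtain ⟨K, _, _, hK, f, hf⟩ := LieExceptional.CyclicSylow.exists_singer F 6
  classical
  have := Fintype.ofFinite K
  obtain ⟨u, hu⟩ := IsCyclic.exists_generator (α := Kˣ)
  have h1 : orderOf u = 63 := by
    rw [orderOf_eq_card_of_forall_mem_zpowers hu, Nat.card_eq_fintype_card, Fintype.card_units,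
      ← Nat.card_eq_fintype_card, hK, Nat.card_eq_fintype_card, h2]
    norm_num
  have hdet : ((f u : GL (Fin 6) F) : Matrix (Fin 6) (Fin 6) F).det = 1 := by
    apply unit_eq_one h2
    intro h0
    have := (f u).isUnit
    rw [Matrix.isUnit_iff_isUnit_det, h0] at this
    exact not_isUnit_zero this
  obtain ⟨w, hw⟩ : ∃ w : SpecialLinearGroup (Fin 6) F, w.1 = (f u : GL (Fin 6) F) := ⟨⟨_, hdet⟩, rfl⟩
  refine ⟨w, ?_⟩
  have h3 : orderOf (f u) = 63 := by rw [orderOf_injective _ hf, h1]
  rw [← h3]
  have hinj : Function.Injective (Matrix.SpecialLinearGroup.toGL : SpecialLinearGroup (Fin 6) F →* GL (Fin 6) F) :=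
    Matrix.SpecialLinearGroup.toGL_injective
  rw [← orderOf_injective _ hinj]
  congr 1
  apply Units.ext
  exact hw

theorem psl_two_injective {F : Type} [Field F] [Fintype F] (h2 : Fintype.card F = 2) (n : ℕ) :
    Function.Injective (QuotientGroup.mk' (center (SpecialLinearGroup (Fin n) F))) := by
  rw [injective_iff_map_eq_one]
  intro a ha
  have h1 : a ∈ center (SpecialLinearGroup (Fin n) F) := (QuotientGroup.eq_one_iff _).1 ha
  obtain ⟨r, hrn, hr⟩ := Matrix.SpecialLinearGroup.mem_center_iff.1 h1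
  apply Subtype.ext
  rw [← hr]
  by_cases hn : n = 0
  · subst hn
    exact Subsingleton.elim _ _
  · have hr0 : r ≠ 0 := by
      rintro rfl
      rw [Fintype.card_fin, zero_pow hn] at hrn
      exact zero_ne_one hrn
    rw [unit_eq_one h2 hr0, map_one]
    rfl

theorem psl67_two {F : Type} [Field F] [Fintype F] {n : ℕ} (hn : n = 6 ∨ n = 7) (h2 : Fintype.card F = 2)
    (h : KH N (Matrix.ProjectiveSpecialLinearGroup (Fin n) F)) (hN : N ∣ 648) : False := by
  obtain ⟨w, hw⟩ := exists_sixtythree h2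
  rcases hn with rfl | rfl
  · exact sixtythree h hN (w := QuotientGroup.mk' _ w) (by
      rw [orderOf_injective _ (psl_two_injective h2 6), hw])
  · have hi : Function.Injective (Fin.castSucc : Fin 6 → Fin 7) := Fin.castSucc_injective 6
    exact sixtythree h hN (w := QuotientGroup.mk' _ (H341.ThreeElts.slExt Fin.castSucc hi w)) (by
      rw [orderOf_injective _ (psl_two_injective h2 7), orderOf_injective _ (H341.ThreeElts.slExt_injective hi), hw])

/-- the kinds `psl67` -/
theorem psl67 {F : Type} [Field F] [Fintype F] {n : ℕ} (hn : n = 6 ∨ n = 7) (hq : Fintype.card F % 3 = 2)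
    (h : KH N (Matrix.ProjectiveSpecialLinearGroup (Fin n) F)) (hN : N ∣ 648) : False :=
  psl67_two hn (KillB.psl67 (by omega) h (by omega)) h hN

end Cfsg.Agent.H344.KillC
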