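import Cfsg.Agent.H344.Blocks4
import Cfsg.Agent.H344.KillB
import Cfsg.Agent.H356.KillOrth

/-!
# `Ω₇(q)` and `Ω₈⁻(q)` (helper344)
-/

set_option autoImplicit false

namespace Cfsg.Agent.H344.KillO

open Subgroup QuadraticMap Cfsg.Agent.H344.Wr Cfsg.Agent.H344.Blocks4
open Cfsg.Agent.LieClassical Cfsg.Agent.LieClassical.OrthCore Cfsg.Agent.LieClassical.OrthForms
open Cfsg.Agent.LieClassical.SLTwoUnipotent
open Cfsg.Agent.LieClassical.OrthTrans Cfsg.Agent.LieClassical.OrthSimple Cfsg.Agent.LieClassical.OrthFinite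
open Cfsg.Agent.TitsThree Cfsg.Agent.TitsThree.Siegel Cfsg.Agent.TitsThree.SiegelGen
  Cfsg.Agent.TitsThree.WittFrame Cfsg.Agent.TitsThree.WittWeyl Cfsg.Agent.TitsThree.WBridge
  Cfsg.Agent.TitsThree.KSideO
open Cfsg.Agent.Nodes.RGDOrth
open Cfsg.Agent.OddHalf.LongSL.OrthPhi Cfsg.Agent.OddHalf.LongSL.Orth
open Cfsg.Agent.OddHalf.NI.OmegaLast
open Cfsg.Agent.H356.KillOrth

variable {N : ℕ}

theorem psiO_mem {F : Type} [Field F] [Finite F] {m : ℕ} (i2 : Fin m) (a : Matrix.SpecialLinearGroup (Fin 2) F) :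
    PsiO m i2 a ∈ E (oddForm m F) := by
  have h1 : (E (oddForm m F)).comap (PsiO m i2) = ⊤ := by
    apply eq_top_of_u_mem_of_l_mem
    · intro t
      rw [Subgroup.mem_comap]
      have := PsiO_up m i2 t
      rw [show (u t : Matrix.SpecialLinearGroup (Fin 2) F) = up t from rfl, this]
      exact Z_mem _ _ _
    · intro t
      rw [Subgroup.mem_comap]
      have := PsiO_lo m i2 t
      rw [show (l t : Matrix.SpecialLinearGroup (Fin 2) F) = lo t from rfl, this]
      exact Z_mem _ _ _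
  exact Subgroup.mem_comap.1 (h1 ▸ Subgroup.mem_top a)

theorem psiO_center {F : Type} [Field F] {m : ℕ} (i2 : Fin m) {a : Matrix.SpecialLinearGroup (Fin 2) F}
    (h : PsiO m i2 a = 1) : a ∈ center (Matrix.SpecialLinearGroup (Fin 2) F) := by
  have key : ∀ v : F × F × F, actO a v = v := by
    intro v
    have h1 := LinearEquiv.congr_fun h (jO m i2 v)
    rw [PsiO_apply, rO_jO, sub_self, zero_add] at h1
    have h2 := congrArg (rO m i2) h1
    rw [rO_jO] at h2
    change _ = rO m i2 (jO m i2 v) at h2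
    rwa [rO_jO] at h2
  have h1 := key (1, 0, 0)
  have h2 := key (0, 1, 0)
  simp only [actO, Prod.mk.injEq] at h1 h2
  obtain ⟨-, h10, -⟩ := h1
  obtain ⟨h01, -, -⟩ := h2
  have e10 : a.1 1 0 = 0 := by
    have : a.1 1 0 ^ 2 = 0 := by linear_combination -h10
    exact pow_eq_zero_iff (two_ne_zero) |>.1 this
  have e01 : a.1 0 1 = 0 := by
    have : a.1 0 1 ^ 2 = 0 := by linear_combination -h01
    exact pow_eq_zero_iff (two_ne_zero) |>.1 this
  have h3 := key (0, 0, 1)
  have h4 := key (1, 0, 0)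
  simp only [actO, Prod.mk.injEq] at h3 h4
  have hdet : a.1 0 0 * a.1 1 1 = 1 := by
    have := a.2
    rw [Matrix.det_fin_two, e01] at this
    linear_combination this
  have hsq : a.1 0 0 ^ 2 = 1 := by
    have := h4.1
    rw [e01] at this
    linear_combination this
  have e11 : a.1 0 0 = a.1 1 1 := by
    have h0 : a.1 0 0 ≠ 0 := by
      intro h0
      rw [h0, zero_mul] at hdet
      exact zero_ne_one hdet
    apply mul_left_cancel₀ h0
    rw [hdet, ← pow_two, hsq]
  rw [Matrix.SpecialLinearGroup.mem_center_iff]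
  refine ⟨a.1 0 0, by rw [Fintype.card_fin]; exact hsq, ?_⟩
  refine Matrix.ext fun i j => ?_
  fin_cases i <;> fin_cases j
  · simp
  · simp
    exact e01.symm
  · simp
    exact e10.symm
  · simp
    exact e11

section M

variable {F : Type} [Field F] (a b : F)
  (hab : ∀ z₁ z₂ : F, z₁ ^ 2 + a * z₁ * z₂ + b * z₂ ^ 2 = 0 → z₁ = 0 ∧ z₂ = 0)

include hab in
theorem fact : Fact (∀ r : F, r ^ 2 ≠ -b + a * r) := ⟨fun r hr => by
  have := (hab (-r) 1 (by linear_combination hr)).2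
  exact one_ne_zero this⟩

end M

section M2

variable {F : Type} [Field F] {m : ℕ} {a b : F}

theorem psiM_center [Fact (∀ r : F, r ^ 2 ≠ -b + a * r)] (i2 : Fin m)
    {g : Matrix.SpecialLinearGroup (Fin 2) (EE a b)}
    (h : PsiM m a b i2 g = 1) : g ∈ center (Matrix.SpecialLinearGroup (Fin 2) (EE a b)) := by
  have key : ∀ v : OrthFourMinus.V F (-b) a, OrthFourMinus.actFun g.1 v = v := by
    intro v
    have h1 := LinearEquiv.congr_fun h (jM m a b i2 v)
    rw [PsiM_apply, rM_jM, sub_self, zero_add] at h1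
    have h2 := congrArg (rM m a b i2) h1
    rw [rM_jM] at h2
    change _ = rM m a b i2 (jM m a b i2 v) at h2
    rwa [rM_jM] at h2
  apply OrthFourMinus.mem_center_of_phi_eq_one
  apply Subtype.ext
  refine LinearEquiv.ext fun v => ?_
  rw [OrthFourMinus.phi_apply, key]
  rfl

theorem psiM_mem [Finite F] [Fact (∀ r : F, r ^ 2 ≠ -b + a * r)]
    (hab : ∀ z₁ z₂ : F, z₁ ^ 2 + a * z₁ * z₂ + b * z₂ ^ 2 = 0 → z₁ = 0 ∧ z₂ = 0) (i2 : Fin m)
    (g : Matrix.SpecialLinearGroup (Fin 2) (EE a b)) : PsiM m a b i2 g ∈ E (minusForm m F a b) := by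
  have h1 : (E (minusForm m F a b)).comap (PsiM m a b i2) = ⊤ := by
    apply eq_top_of_u_mem_of_l_mem
    · intro t
      rw [Subgroup.mem_comap]
      have := PsiM_up m a b hab i2 t
      rw [show (u t : Matrix.SpecialLinearGroup (Fin 2) (EE a b)) = up t from rfl, this]
      exact Z_mem _ _ _
    · intro t
      rw [Subgroup.mem_comap]
      have := PsiM_lo m a b hab i2 t
      rw [show (l t : Matrix.SpecialLinearGroup (Fin 2) (EE a b)) = lo t from rfl, this]
      exact Z_mem _ _ _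
  exact Subgroup.mem_comap.1 (h1 ▸ Subgroup.mem_top g)

end M2

section Gen

variable {ι : Type} [Fintype ι] [DecidableEq ι] {F : Type} [Field F] [Finite F] {Q : QuadraticForm F (ι → F)}
  {m : ℕ} (W : WFrame (PO Q) m)

omit [Finite F] in
/-- commuting homomorphisms into `POmega` -/
theorem exists_homs (hG : Good Q) {x y z : Fin m × Bool} (hxy : x.1 ≠ y.1)
    (hzx : z.1 ≠ x.1) (hzy : z.1 ≠ y.1) {L : Type} [Field L] (k : Matrix.SpecialLinearGroup (Fin 2) L →* ((ι → F) ≃ₗ[F] (ι → F))) (hk : ∀ a, k a ∈ E Q)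
    (hk1 : ∀ a, k a = 1 → a ∈ center (Matrix.SpecialLinearGroup (Fin 2) L))
    (h : ∀ a, k a ((toFrame W).b x) = (toFrame W).b x ∧ k a ((toFrame W).b (neg x)) = (toFrame W).b (neg x) ∧
      k a ((toFrame W).b y) = (toFrame W).b y ∧ k a ((toFrame W).b (neg y)) = (toFrame W).b (neg y)) :
    ∃ (f g : Matrix.SpecialLinearGroup (Fin 2) F →* E Q) (k' : Matrix.SpecialLinearGroup (Fin 2) L →* E Q),
      (∀ a, (f a).1 = Phi (toFrame W) hxy a) ∧ (∀ a, (k' a).1 = k a) ∧
      (∀ a b, f a * g b = g b * f a) ∧ (∀ a b, f a * k' b = k' b * f a) ∧ (∀ a b, g a * k' b = k' b * g a) ∧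
      (∀ a b c, toPOmega hG (f a) * toPOmega hG (g b) * toPOmega hG (k' c) = 1 → a ^ 4 = 1 ∧ b ^ 4 = 1 ∧ c ^ 4 = 1) ∧
      (∀ a, toPOmega hG (f a) = 1 → a = 1) ∧
      ∀ c, toPOmega hG (k' c) = 1 → c ∈ center (Matrix.SpecialLinearGroup (Fin 2) L) := by
  have hxy' : x.1 ≠ (neg y).1 := hxy
  let f₀ : Matrix.SpecialLinearGroup (Fin 2) F →* E Q :=
    (Phi (toFrame W) hxy).codRestrict (E Q) (Phi_mem' W hxy)
  let f₁ : Matrix.SpecialLinearGroup (Fin 2) F →* E Q :=
    (Phi (toFrame W) hxy').codRestrict (E Q) (Phi_mem' W hxy')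
  let f₂ : Matrix.SpecialLinearGroup (Fin 2) L →* E Q := k.codRestrict (E Q) hk
  have c1 : ∀ a b, f₀ a * f₁ b = f₁ b * f₀ a := fun a b => Subtype.ext (Phi_comm W hxy hxy' a b).eq
  have c2 : ∀ a b, f₀ a * f₂ b = f₂ b * f₀ a := by
    intro a b
    obtain ⟨k1, k2, k3, k4⟩ := h b
    exact Subtype.ext (comm_of_fix W hxy (E_le_O (hk b)) k1 k2 k3 k4 a).eq
  have c3 : ∀ a b, f₁ a * f₂ b = f₂ b * f₁ a := by
    intro a b
    obtain ⟨k1, k2, k3, k4⟩ := h b
    exact Subtype.ext (comm_of_fix W hxy' (E_le_O (hk b)) k1 k2 k4 (by rw [WittFrame.neg_neg]; exact k3) a).eq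
  refine ⟨f₀, f₁, f₂, fun _ => rfl, fun _ => rfl, c1, c2, c3, ?_, fun a ha => ?_, fun c hc => ?_⟩
  rotate_left
  · exact phiP_injective W hG hxy hzx hzy (ha.trans (map_one _).symm)
  · obtain ⟨r, hr⟩ := scalar_of_center hG (center_of_toPOmega hG hc)
    have h2 : k c ((toFrame W).b x) = r • (toFrame W).b x := hr _
    rw [(h c).1] at h2
    have h3 : r = 1 := by
      have h4 : (1 - r) • (toFrame W).b x = 0 := by
        rw [sub_smul, one_smul, ← h2, sub_self]
      have h5 := (smul_eq_zero.1 h4).resolve_right (Cfsg.Agent.Nodes.WittRGD.b_ne_zero _)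
      exact (sub_eq_zero.1 h5).symm
    apply hk1
    refine LinearEquiv.ext fun v => ?_
    have h6 : k c v = r • v := hr v
    rw [h6, h3, one_smul]
    rfl
  intro a b c h1
  refine hi (toPOmega hG) (fun g hg => center_of_toPOmega hG hg) f₀ f₁ f₂ ?_ ?_ ?_ c1 c2 c3 a b c h1
  · intro g hg
    have : Phi (toFrame W) hxy g = 1 := congrArg Subtype.val hg
    have h2 : g = 1 := Phi_injective (toFrame W) hxy (this.trans (map_one _).symm)
    rw [h2]
    exact one_mem _
  · intro g hg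
    have : Phi (toFrame W) hxy' g = 1 := congrArg Subtype.val hg
    have h2 : g = 1 := Phi_injective (toFrame W) hxy' (this.trans (map_one _).symm)
    rw [h2]
    exact one_mem _
  · intro g hg
    exact hk1 g (congrArg Subtype.val hg)

end Gen

/-- `Ω₈⁻(q)` -/
theorem ominus {F : Type} [Field F] [Fintype F] (h3 : ¬ 3 ∣ Fintype.card F) {a b : F}
    (hab : ∀ z₁ z₂ : F, z₁ ^ 2 + a * z₁ * z₂ + b * z₂ ^ 2 = 0 → z₁ = 0 ∧ z₂ = 0)
    (h : KH N (Cfsg.POmega F (Cfsg.quadFormMinus 3 F a b))) : False := by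
  have := fact a b hab
  let _ : Fintype (EE a b) := Fintype.ofEquiv _ (QuadraticAlgebra.equivProd (-b) a).symm
  have hcard : Fintype.card (EE a b) = Fintype.card F ^ 2 := by
    rw [Fintype.card_congr (QuadraticAlgebra.equivProd (-b) a), Fintype.card_prod, pow_two]
  have hG : Good (minusForm 3 F a b) := good_of_finite (nondeg_minusForm 3 F a b hab)
    (by rw [Module.finrank_fintype_fun_eq_card]; simp)
  rw [← coe_minusForm] at h
  let i0 : Fin 3 := 0
  let i1 : Fin 3 := 1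
  let i2 : Fin 3 := 2
  have h01 : ((i0, true) : Fin 3 × Bool).1 ≠ ((i1, true) : Fin 3 × Bool).1 := by simp [i0, i1]
  have h02 : i0 ≠ i2 := by simp [i0, i2]
  have h12 : i1 ≠ i2 := by simp [i1, i2]
  have hr : ∀ (j : Fin 3), j ≠ i2 → rM 3 a b i2 (Pi.single (Sum.inl (Sum.inl j)) (1 : F)) = 0 ∧
      rM 3 a b i2 (Pi.single (Sum.inl (Sum.inr j)) (1 : F)) = 0 := by
    intro j hj
    constructor
    · refine Prod.ext ?_ (Prod.ext ?_ ?_)
      · simp [rM, hj.symm]
      · simp [rM, hj.symm]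
      · apply QuadraticAlgebra.ext <;> simp [rM]
    · refine Prod.ext ?_ (Prod.ext ?_ ?_)
      · simp [rM, hj.symm]
      · simp [rM, hj.symm]
      · apply QuadraticAlgebra.ext <;> simp [rM]
  have hfix : ∀ (g : Matrix.SpecialLinearGroup (Fin 2) (EE a b)) (v : (Fin 3 ⊕ Fin 3) ⊕ Fin 2 → F),
      rM 3 a b i2 v = 0 → PsiM 3 a b i2 g v = v := by
    intro g v hv
    rw [PsiM_apply, hv]
    have : OrthFourMinus.actFun g.1 (0 : OrthFourMinus.V F (-b) a) = 0 :=
      map_zero (OrthFourMinus.act g.1)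
    rw [this]
    simp
  obtain ⟨f, g, k, hf, hk, c1, c2, c3, hh, -, h0⟩ := exists_homs (wminus 3 F a b hab) hG (z := (i2, true)) h01
    h02.symm h12.symm (PsiM 3 a b i2) (psiM_mem hab i2) (fun g hg => psiM_center i2 hg)
    (fun a => ⟨hfix a _ (hr i0 h02).1, hfix a _ (hr i0 h02).2, hfix a _ (hr i1 h12).1, hfix a _ (hr i1 h12).2⟩)
  refine one h (L := EE a b) (L' := F) (L'' := F) ?_ h3 h3 ((toPOmega hG).comp k) ((toPOmega hG).comp f)
    ((toPOmega hG).comp g) (fun x y => ?_) (fun x y => ?_) (fun x y => ?_) (fun x y z hxyz => ?_) (fun h1 => ?_)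
  · rw [hcard, Nat.pow_mod]
    have : Fintype.card F % 3 = 1 ∨ Fintype.card F % 3 = 2 := by omega
    rcases this with h | h <;> rw [h]
  · simp only [MonoidHom.comp_apply]
    rw [← map_mul, ← c2, map_mul]
  · simp only [MonoidHom.comp_apply]
    rw [← map_mul, ← c3, map_mul]
  · simp only [MonoidHom.comp_apply]
    rw [← map_mul, c1, map_mul]
  · simp only [MonoidHom.comp_apply] at hxyz
    obtain ⟨k1, k2, k3⟩ := hh y z x (by
      rw [← hxyz, ← map_mul, ← map_mul, ← map_mul, ← map_mul]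
      congr 1
      rw [mul_assoc, c3, ← mul_assoc, c2])
    exact ⟨k3, k1, k2⟩
  · exact KillB.un_not_center (EE a b) (h0 _ h1)

/-- `Ω₇(q)` -/
theorem oodd {F : Type} [Field F] [Fintype F] (h3 : ¬ 3 ∣ Fintype.card F) (hodd : Odd (Fintype.card F))
    (h : KH N (Cfsg.POmega F (Cfsg.quadFormOdd 3 F))) : False := by
  have h2 : (2 : F) ≠ 0 := by
    intro h2
    have h4 : ringChar F = 2 := by
      have h5 : ringChar F ∣ 2 := (ringChar.spec F 2).1 (by exact_mod_cast h2)
      rcases (Nat.dvd_prime Nat.prime_two).1 h5 with h6 | h6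
      · exfalso
        have h7 := (ringChar.spec F 1).2 (by rw [h6])
        simp at h7
      · exact h6
    have h8 := FiniteField.even_card_of_char_two h4
    have h9 := Nat.odd_iff.1 hodd
    omega
  have hG : Good (oddForm 3 F) := good_of_finite (nondeg_oddForm 3 F h2)
    (by rw [Module.finrank_fintype_fun_eq_card]; simp)
  rw [← coe_oddForm] at h
  let i0 : Fin 3 := 0
  let i1 : Fin 3 := 1
  let i2 : Fin 3 := 2
  have h01 : ((i0, true) : Fin 3 × Bool).1 ≠ ((i1, true) : Fin 3 × Bool).1 := by simp [i0, i1]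
  have h02 : i0 ≠ i2 := by simp [i0, i2]
  have h12 : i1 ≠ i2 := by simp [i1, i2]
  have hr : ∀ (j : Fin 3), j ≠ i2 → rO 3 i2 (Pi.single (Sum.inr (Sum.inl j)) (1 : F)) = 0 ∧
      rO 3 i2 (Pi.single (Sum.inr (Sum.inr j)) (1 : F)) = 0 := by
    intro j hj
    constructor
    · refine Prod.ext ?_ (Prod.ext ?_ ?_) <;> simp [rO, hj.symm]
    · refine Prod.ext ?_ (Prod.ext ?_ ?_) <;> simp [rO, hj.symm]
  have hfix : ∀ (a : Matrix.SpecialLinearGroup (Fin 2) F) (v : Unit ⊕ (Fin 3 ⊕ Fin 3) → F), rO 3 i2 v = 0 →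
      PsiO 3 i2 a v = v := by
    intro a v hv
    rw [PsiO_apply, hv]
    have : actO a (0 : F × F × F) = 0 := by
      refine Prod.ext ?_ (Prod.ext ?_ ?_) <;> simp [actO]
    rw [this]
    simp
  obtain ⟨f, g, k, hf, hk, c1, c2, c3, hh, h0, -⟩ := exists_homs (wodd 3 F) hG (z := (i2, true)) h01
    h02.symm h12.symm (PsiO 3 i2) (psiO_mem i2) (fun g hg => psiO_center i2 hg)
    (fun a => ⟨hfix a _ (hr i0 h02).1, hfix a _ (hr i0 h02).2, hfix a _ (hr i1 h12).1, hfix a _ (hr i1 h12).2⟩)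
  have h2' : Fintype.card F % 3 = 1 ∨ Fintype.card F % 3 = 2 := by omega
  have d1 : ∀ a b, (toPOmega hG).comp f a * (toPOmega hG).comp g b = (toPOmega hG).comp g b * (toPOmega hG).comp f a := by
    intro x y
    simp only [MonoidHom.comp_apply]
    rw [← map_mul, c1, map_mul]
  have d2 : ∀ a b, (toPOmega hG).comp f a * (toPOmega hG).comp k b = (toPOmega hG).comp k b * (toPOmega hG).comp f a := by
    intro x y
    simp only [MonoidHom.comp_apply]
    rw [← map_mul, c2, map_mul]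
  have d3 : ∀ a b, (toPOmega hG).comp g a * (toPOmega hG).comp k b = (toPOmega hG).comp k b * (toPOmega hG).comp g a := by
    intro x y
    simp only [MonoidHom.comp_apply]
    rw [← map_mul, c3, map_mul]
  rcases h2' with h1 | h1
  · refine one h h1 h3 h3 ((toPOmega hG).comp f) ((toPOmega hG).comp g) ((toPOmega hG).comp k) d1 d2 d3 hh fun h5 => ?_
    have h7 : (1 : F) = 0 := congrArg (fun x : Matrix.SpecialLinearGroup (Fin 2) F => x.1 0 1) (h0 _ h5)
    exact one_ne_zero h7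
  · have := two h h1 ((toPOmega hG).comp f) ((toPOmega hG).comp g) ((toPOmega hG).comp k) d1 d2 d3 hh h0
    rw [this] at hodd
    exact absurd hodd (by decide)

end Cfsg.Agent.H344.KillO
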