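import Cfsg.Agent.H344.KillA
import Cfsg.Agent.R04.ONThree
import Cfsg.Agent.KFacts.ON.OneClass

/-!
# O'Nan's group and the property `KH`: an abelian subgroup of order 81 (helper344)
-/

set_option autoImplicit false

namespace Cfsg.Agent.H344.KillON

open Subgroup Cfsg Cfsg.Agent.H344.Wr
open Cfsg.Spor (ON)
open Cfsg.Agent.KFacts.ON.OneClass (hs)

theorem exists_E : ∃ E : Subgroup ON, Nat.card E = 81 ∧ ∀ a ∈ E, ∀ b ∈ E, a * b = b * a := by
  have D := R04.ONThree.data hs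
  refine ⟨D.E, ?_, ?_⟩
  · rw [D.card_E R04.ONThree.ab_ne R04.ONThree.fe_ne R04.ONThree.a_ne R04.ONThree.f_ne (R04.ONThree.inv hs)]
  · rintro _ ⟨i, j, k, l, rfl⟩ _ ⟨i', j', k', l', rfl⟩
    rw [D.el_mul, D.el_mul, add_comm i, add_comm j, add_comm k, add_comm l]

theorem kill {N : ℕ} (h : KH N ON) : False := by
  obtain ⟨E, hE, hc⟩ := exists_E
  exact KillA.not_eighty h hc hE

end Cfsg.Agent.H344.KillON
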