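import Mathlib

/-!
# Permutations commuting with `(0 1 2)(3 4 5)(6 7 8)` (helper344)
-/

set_option autoImplicit false

namespace Cfsg.Agent.H344.PermB

open Equiv Equiv.Perm

abbrev σ : Perm (Fin 9) :=
  swap (0 : Fin 9) 1 * swap 1 2 * swap 3 4 * swap 4 5 * swap 6 7 * swap 7 8

def τ : Perm (Fin 9) := swap 0 3 * swap 3 6 * (swap 1 4 * swap 4 7) * (swap 2 5 * swap 5 8)

def ι : Perm (Fin 9) := swap 0 3 * swap 1 4 * swap 2 5

def c2 : Perm (Fin 9) := swap 3 4 * swap 4 5

def c3 : Perm (Fin 9) := swap 6 7 * swap 7 8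

theorem τ_comm : τ * σ = σ * τ := by decide

theorem ι_comm : ι * σ = σ * ι := by decide

theorem c2_comm : c2 * σ = σ * c2 := by decide

theorem c3_comm : c3 * σ = σ * c3 := by decide

theorem τ_cube : τ ^ 3 = 1 := by decide

theorem c2_cube : c2 ^ 3 = 1 := by decide

theorem c3_cube : c3 ^ 3 = 1 := by decide

theorem τ_eq : τ = ι * τ * ι⁻¹ * τ⁻¹ := by decide

theorem step {α : Type*} {π π' ρ : Perm α} (h : π * ρ = ρ * π) (h' : π' * ρ = ρ * π') {v : α} (hv : π v = π' v) :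
    π (ρ v) = π' (ρ v) :=
  calc π (ρ v) = (π * ρ) v := rfl
    _ = (ρ * π) v := by rw [h]
    _ = ρ (π v) := rfl
    _ = ρ (π' v) := by rw [hv]
    _ = (ρ * π') v := rfl
    _ = (π' * ρ) v := by rw [h']
    _ = π' (ρ v) := rfl

/-- a permutation commuting with `σ` and `τ` is determined by the image of `0` -/
theorem ext_of {π π' : Perm (Fin 9)} (h1 : π * σ = σ * π) (h2 : π * τ = τ * π) (h1' : π' * σ = σ * π')
    (h2' : π' * τ = τ * π') (h0 : π 0 = π' 0) : π = π' := by
  have a1 : ∀ v, π v = π' v → π (σ v) = π' (σ v) := fun v hv => step h1 h1' hv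
  have a2 : ∀ v, π v = π' v → π (τ v) = π' (τ v) := fun v hv => step h2 h2' hv
  have b1 : π 1 = π' 1 := a1 0 h0
  have b2 : π 2 = π' 2 := a1 1 b1
  have b3 : π 3 = π' 3 := a2 0 h0
  have b4 : π 4 = π' 4 := a1 3 b3
  have b5 : π 5 = π' 5 := a1 4 b4
  have b6 : π 6 = π' 6 := a2 3 b3
  have b7 : π 7 = π' 7 := a1 6 b6
  have b8 : π 8 = π' 8 := a1 7 b7
  refine Equiv.ext fun v => ?_
  fin_cases v
  · exact h0
  · exact b1
  · exact b2
  · exact b3
  · exact b4
  · exact b5
  · exact b6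
  · exact b7
  · exact b8

/-- a permutation commuting with `σ`, `τ`, `c₂`, `c₃` is a power of `σ` -/
theorem mem_zpowers {π : Perm (Fin 9)} (h1 : π * σ = σ * π) (h2 : π * τ = τ * π) (h3 : π * c2 = c2 * π)
    (h4 : π * c3 = c3 * π) : π ∈ Subgroup.zpowers σ := by
  have e3 : c2 (π 0) = π 0 := by
    have : (π * c2) 0 = (c2 * π) 0 := by rw [h3]
    exact this.symm
  have e4 : c3 (π 0) = π 0 := by
    have : (π * c3) 0 = (c3 * π) 0 := by rw [h4]
    exact this.symm
  have key : ∀ v : Fin 9, c2 v = v → c3 v = v → v = 0 ∨ v = 1 ∨ v = 2 := by decide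
  have hτσ := τ_comm
  rcases key (π 0) e3 e4 with h | h | h
  · have : π = 1 := ext_of h1 h2 (by simp) (by simp) h
    rw [this]
    exact Subgroup.one_mem _
  · have : π = σ := ext_of h1 h2 rfl hτσ.symm h
    rw [this]
    exact Subgroup.mem_zpowers _
  · have : π = σ ^ 2 := by
      refine ext_of h1 h2 ?_ ?_ (h.trans (by decide))
      · rw [← pow_succ, ← pow_succ']
      · exact ((show Commute σ τ from hτσ.symm).pow_left 2).eq
    rw [this]
    exact Subgroup.pow_mem _ (Subgroup.mem_zpowers _) 2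

theorem cycleType_σ : (cycleType σ).sum = 9 := by
  rw [sum_cycleType]
  decide

theorem orderOf_σ : orderOf σ = 3 := by
  have : Fact (Nat.Prime 3) := ⟨Nat.prime_three⟩
  exact orderOf_eq_prime (by decide) (by decide)

theorem c2_not : c2 * τ ≠ τ * c2 := by decide

end Cfsg.Agent.H344.PermB
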