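import Mathlib

/-!
# Finite quotients of the `(3,3,3)` triangle group

`tri`: let `x`, `y`, `x y` be elements of order three of a finite group in which the centralizers
of the elements of order three are elementary abelian 3-groups.  Then `x` and `y` commute, or
`y` and `(x y)⁻¹` are conjugate to `x`.
-/

set_option autoImplicit false

namespace Cfsg.Agent.H344.Triangle

open Subgroup

variable {G : Type*} [Group G]

theorem cube (x : G) : x ^ 3 = x * x * x := by rw [pow_succ, pow_two]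

theorem mul_self_of_cube {x : G} (hx : x ^ 3 = 1) : x * x = x⁻¹ := by
  rw [cube] at hx
  exact eq_inv_of_mul_eq_one_left hx

theorem inv_mul_inv_of_cube {x : G} (hx : x ^ 3 = 1) : x⁻¹ * x⁻¹ = x := by
  rw [← mul_inv_rev, mul_self_of_cube hx, inv_inv]

theorem comm12 {x y : G} (hx : x ^ 3 = 1) (hy : y ^ 3 = 1) (hxy : (x * y) ^ 3 = 1) :
    (x * y⁻¹) * (x * (x * y⁻¹) * x⁻¹) = (x * (x * y⁻¹) * x⁻¹) * (x * y⁻¹) := by
  have hx' : x * x * x = 1 := by rw [← cube]; exact hx
  have hy' : y * y * y = 1 := by rw [← cube]; exact hy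
  have hxy' : x * y * (x * y) * (x * y) = 1 := by rw [← cube]; exact hxy
  have e1 : x⁻¹ = x * x := (mul_self_of_cube hx).symm
  have e2 : y⁻¹ = y * y := (mul_self_of_cube hy).symm
  -- `y x y x y = x⁻¹`
  have e3 : y * x * y * x * y = x⁻¹ := by
    rw [eq_inv_iff_mul_eq_one]
    have : y * x * y * x * y * x = x⁻¹ * (x * y * (x * y) * (x * y)) * x := by group
    rw [this, hxy']; group
  have e4 : y⁻¹ * x⁻¹ * y⁻¹ * x⁻¹ * y⁻¹ = x := by
    have := congrArg (fun z => z⁻¹) e3
    simp only [mul_inv_rev, inv_inv] at this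
    simp only [mul_assoc] at this ⊢
    exact this
  set t1 := x * y⁻¹ with ht1
  set t2 := x * (x * y⁻¹) * x⁻¹ with ht2
  set t3 := y⁻¹ * x with ht3
  have h2 : t2 = x⁻¹ * y⁻¹ * x⁻¹ := by
    rw [ht2]
    have : x⁻¹ = x * x := e1
    calc x * (x * y⁻¹) * x⁻¹ = (x * x) * y⁻¹ * x⁻¹ := by group
      _ = _ := by rw [← e1]
  have h123 : t1 * t2 * t3 = 1 := by
    rw [h2, ht1, ht3]
    calc x * y⁻¹ * (x⁻¹ * y⁻¹ * x⁻¹) * (y⁻¹ * x) = x * (y⁻¹ * x⁻¹ * y⁻¹ * x⁻¹ * y⁻¹) * x := by group
      _ = 1 := by rw [e4]; exact hx'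
  have h321 : t3 * t2 * t1 = 1 := by
    rw [h2, ht1, ht3]
    calc y⁻¹ * x * (x⁻¹ * y⁻¹ * x⁻¹) * (x * y⁻¹) = (y * y * y)⁻¹ := by group
      _ = 1 := by rw [hy']; group
  -- `t1 t2 = t3⁻¹ = t2 t1`
  have a1 : t1 * t2 = t3⁻¹ := eq_inv_of_mul_eq_one_left h123
  have a2 : t2 * t1 = t3⁻¹ := by
    rw [mul_assoc] at h321
    exact eq_inv_of_mul_eq_one_right h321
  rw [a1, a2]


theorem conj3 {x y : G} (hx : x ^ 3 = 1) :
    x * (x * (x * y⁻¹) * x⁻¹) * x⁻¹ = y⁻¹ * x := by
  have e : x * x = x⁻¹ := mul_self_of_cube hx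
  calc x * (x * (x * y⁻¹) * x⁻¹) * x⁻¹ = (x * x) * x * y⁻¹ * (x * x)⁻¹ := by
        simp only [mul_inv_rev, mul_assoc]
    _ = _ := by rw [e]; group

variable [Finite G]

theorem tri (H : ∀ z : G, z ^ 3 = 1 → z ≠ 1 → ∀ a : G, a * z = z * a →
      a ^ 3 = 1 ∧ ∀ b : G, b * z = z * b → a * b = b * a)
    {x y : G} (hx : x ^ 3 = 1) (hy : y ^ 3 = 1) (hxy : (x * y) ^ 3 = 1) (hx1 : x ≠ 1) :
    x * y = y * x ∨ (IsConj x y ∧ IsConj x (x * y)⁻¹) := by
  set t1 := x * y⁻¹ with ht1
  set t2 := x * (x * y⁻¹) * x⁻¹ with ht2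
  have h12 : t1 * t2 = t2 * t1 := comm12 hx hy hxy
  set T : Subgroup G := closure {t1, t2} with hT
  have ht1T : t1 ∈ T := subset_closure (by simp)
  have ht2T : t2 ∈ T := subset_closure (by simp)
  have hTc : ∀ a ∈ T, ∀ b ∈ T, a * b = b * a := by
    have h : ∀ a ∈ ({t1, t2} : Set G), ∀ b ∈ ({t1, t2} : Set G), a * b = b * a := by
      intro a ha b hb
      simp only [Set.mem_insert_iff, Set.mem_singleton_iff] at ha hb
      rcases ha with rfl | rfl <;> rcases hb with rfl | rfl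
      · rfl
      · exact h12
      · exact h12.symm
      · rfl
    have h1 : ∀ a ∈ ({t1, t2} : Set G), ∀ b ∈ T, a * b = b * a := by
      intro a ha b hb
      have : b ∈ centralizer {a} := by
        refine (closure_le (K := centralizer {a})).mpr ?_ hb
        intro c hc
        rw [SetLike.mem_coe, mem_centralizer_singleton_iff]
        exact (h a ha c hc).symm
      rw [mem_centralizer_singleton_iff] at this
      exact this.symm
    intro a ha b hb
    have : a ∈ centralizer {b} := by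
      refine (closure_le (K := centralizer {b})).mpr ?_ ha
      intro c hc
      rw [SetLike.mem_coe, mem_centralizer_singleton_iff]
      exact h1 c hc b hb
    rw [mem_centralizer_singleton_iff] at this
    exact this
  have h3 : x * t2 * x⁻¹ = y⁻¹ * x := conj3 hx
  have h3' : x * t2 * x⁻¹ = (t1 * t2)⁻¹ := by
    rw [h3]
    have h4 : t2 * t1 = (y⁻¹ * x)⁻¹ := by
      rw [ht1, ht2]
      have e : x * x = x⁻¹ := mul_self_of_cube hx
      have e2 : y⁻¹ * y⁻¹ = y := inv_mul_inv_of_cube hy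
      calc x * (x * y⁻¹) * x⁻¹ * (x * y⁻¹) = (x * x) * (y⁻¹ * y⁻¹) := by group
        _ = _ := by rw [e, e2]; group
    rw [h12, h4, inv_inv]
  have hconj : ∀ a ∈ T, x * a * x⁻¹ ∈ T := by
    intro a ha
    have : T ≤ T.comap (MulAut.conj x).toMonoidHom := by
      conv_lhs => rw [hT]
      rw [closure_le]
      intro c hc
      simp only [Set.mem_insert_iff, Set.mem_singleton_iff] at hc
      rw [SetLike.mem_coe, mem_comap]
      show x * c * x⁻¹ ∈ T
      rcases hc with rfl | rfl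
      · exact ht2T
      · rw [h3']; exact inv_mem (mul_mem ht1T ht2T)
    exact this ha
  by_cases hz : ∃ z ∈ T, z ≠ 1 ∧ z ^ 3 = 1
  · left
    obtain ⟨z, hzT, hz1, hz3⟩ := hz
    have hw : ∃ w ∈ T, w ≠ 1 ∧ w ^ 3 = 1 ∧ x * w = w * x := by
      set z' := x * z * x⁻¹ with hz'
      set z'' := x * z' * x⁻¹ with hz''
      have hz'T : z' ∈ T := hconj z hzT
      have hz''T : z'' ∈ T := hconj z' hz'T
      have c1 : z * z' = z' * z := hTc z hzT z' hz'T
      have c2 : z * z'' = z'' * z := hTc z hzT z'' hz''T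
      have c3 : z' * z'' = z'' * z' := hTc z' hz'T z'' hz''T
      have hz'3 : z' ^ 3 = 1 := by rw [hz', conj_pow, hz3]; group
      have hz''3 : z'' ^ 3 = 1 := by rw [hz'', conj_pow, hz'3]; group
      have hzzz : x * z'' * x⁻¹ = z := by
        rw [hz'', hz']
        calc x * (x * (x * z * x⁻¹) * x⁻¹) * x⁻¹ = x ^ 3 * z * (x ^ 3)⁻¹ := by
              rw [cube]; simp only [mul_inv_rev, mul_assoc]
          _ = z := by rw [hx]; group
      by_cases hp : z * z' * z'' = 1
      · have e1 : z'' = (z * z')⁻¹ := (eq_inv_of_mul_eq_one_right hp)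
        by_cases hw : z⁻¹ * z' = 1
        · refine ⟨z, hzT, hz1, hz3, ?_⟩
          have : z' = z := by rw [inv_mul_eq_one] at hw; exact hw.symm
          rw [hz', mul_inv_eq_iff_eq_mul] at this
          exact this
        · refine ⟨z⁻¹ * z', mul_mem (inv_mem hzT) hz'T, hw, ?_, ?_⟩
          · have : Commute z⁻¹ z' := (Commute.inv_left c1)
            rw [this.mul_pow, inv_pow, hz3, hz'3]; simp
          · have e2 : x * (z⁻¹ * z') * x⁻¹ = z'⁻¹ * z'' := by
              rw [hz'', hz']; group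
            have e3 : z'⁻¹ * z'' = z⁻¹ * z' := by
              have h5 : z'⁻¹ * z'⁻¹ = z' := inv_mul_inv_of_cube hz'3
              calc z'⁻¹ * z'' = z'⁻¹ * (z'⁻¹ * z⁻¹) := by rw [e1, mul_inv_rev z z']
                _ = z'⁻¹ * z'⁻¹ * z⁻¹ := by rw [mul_assoc]
                _ = z' * z⁻¹ := by rw [h5]
                _ = z⁻¹ * z' := ((Commute.inv_left c1 : Commute z⁻¹ z').eq).symm
            rw [e3, mul_inv_eq_iff_eq_mul] at e2
            exact e2
      · refine ⟨z * z' * z'', mul_mem (mul_mem hzT hz'T) hz''T, hp, ?_, ?_⟩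
        · have k1 : Commute z z' := c1
          have k2 : Commute (z * z') z'' := Commute.mul_left c2 c3
          rw [k2.mul_pow, k1.mul_pow, hz3, hz'3, hz''3]; simp
        · have e2 : x * (z * z' * z'') * x⁻¹ = z * z' * z'' := by
            calc x * (z * z' * z'') * x⁻¹ = (x * z * x⁻¹) * (x * z' * x⁻¹) * (x * z'' * x⁻¹) := by group
              _ = z' * z'' * z := by rw [hzzz]
              _ = z' * (z * z'') := by rw [mul_assoc, c2]
              _ = z * z' * z'' := by rw [← mul_assoc, c1]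
          rw [mul_inv_eq_iff_eq_mul] at e2
          exact e2
    obtain ⟨w, hwT, hw1, hw3, hxw⟩ := hw
    have h5 := (H w hw3 hw1 x hxw).2 t1 (hTc t1 ht1T w hwT)
    -- `x` commutes with `x y⁻¹`
    rw [ht1, ← mul_assoc] at h5
    have h6 : x * y⁻¹ = y⁻¹ * x := by
      have : x * (x * y⁻¹) = x * (y⁻¹ * x) := by
        rw [← mul_assoc, h5]; group
      exact mul_left_cancel this
    have : Commute x y⁻¹ := h6
    exact (Commute.inv_right_iff.mp this).eq
  · right
    push Not at hz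
    have hfix : ∀ a ∈ T, a * x = x * a → a = 1 := by
      intro a ha hax
      by_contra h1
      exact hz a ha h1 (H x hx hx1 a hax).1
    let f : T → T := fun t => ⟨t * (x * t⁻¹ * x⁻¹), mul_mem t.2 (hconj _ (inv_mem t.2))⟩
    have hinj : Function.Injective f := by
      intro s t hst
      have h5 : (s : G) * (x * (s : G)⁻¹ * x⁻¹) = t * (x * (t : G)⁻¹ * x⁻¹) :=
        congrArg Subtype.val hst
      have h6 : (t : G)⁻¹ * s * x = x * ((t : G)⁻¹ * s) := by
        have k1 : (x * (t : G)⁻¹ * x⁻¹) * (x * (s : G) * x⁻¹) = (x * (s : G) * x⁻¹) * (x * (t : G)⁻¹ * x⁻¹) :=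
          hTc _ (hconj _ (inv_mem t.2)) _ (hconj _ s.2)
        have k2 : (t : G)⁻¹ * s = (x * (t : G)⁻¹ * x⁻¹) * (x * (s : G) * x⁻¹) := by
          calc (t : G)⁻¹ * s = (t : G)⁻¹ * ((s : G) * (x * (s : G)⁻¹ * x⁻¹)) * (x * (s : G) * x⁻¹) := by group
            _ = (t : G)⁻¹ * (t * (x * (t : G)⁻¹ * x⁻¹)) * (x * (s : G) * x⁻¹) := by rw [h5]
            _ = _ := by group
        have k3 : (t : G)⁻¹ * s = x * ((t : G)⁻¹ * s) * x⁻¹ := by
          conv_lhs => rw [k2]
          group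
        rw [eq_mul_inv_iff_mul_eq] at k3
        exact k3
      have h7 := hfix _ (mul_mem (inv_mem t.2) s.2) h6
      rw [inv_mul_eq_one] at h7
      exact Subtype.ext h7.symm
    have hsurj : Function.Surjective f := Finite.surjective_of_injective hinj
    have hco : ∀ τ ∈ T, IsConj x (τ * x) := by
      intro τ hτ
      obtain ⟨t, ht⟩ := hsurj ⟨τ, hτ⟩
      have h5 : (t : G) * (x * (t : G)⁻¹ * x⁻¹) = τ := congrArg Subtype.val ht
      rw [isConj_iff]
      refine ⟨t, ?_⟩
      rw [← h5]; group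
    constructor
    · have h5 := hco t1⁻¹ (inv_mem ht1T)
      have : t1⁻¹ * x = y := by rw [ht1]; group
      rwa [this] at h5
    · have h5 := hco (x * t2 * x⁻¹) (hconj _ ht2T)
      rw [h3] at h5
      have : y⁻¹ * x * x = (x * y)⁻¹ := by
        have e : x * x = x⁻¹ := mul_self_of_cube hx
        rw [mul_assoc, e]; group
      rwa [this] at h5

end Cfsg.Agent.H344.Triangle
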