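import Mathlib

/-!
# Groups with a Sylow 3-subgroup of order 81 of type `3 wr 3` (helper344)

`Hyp S J x`: `S` has order 81, `J ≤ S` is elementary abelian of order 27, and `Z(S) = ⟨x⟩` has order 3.
If `S` is a Sylow 3-subgroup of the finite group `G` and `J` normalizes no nontrivial `3'`-subgroup, then
* every abelian subgroup of order divisible by 27 is a conjugate of `J`;
* `y` of order 3 such that `81` divides the order of its centralizer, or commuting with an element of order 9, generates a
  conjugate of `⟨x⟩`.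
`KH N K` collects the consequences which go to subgroups.
-/

set_option autoImplicit false

namespace Cfsg.Agent.H344.Wr

open Subgroup

variable {G : Type*} [Group G]

/-- `S` of order 81 with an elementary abelian subgroup `J` of order 27 and centre `⟨x⟩` of order 3 -/
structure Hyp (S J : Subgroup G) (x : G) : Prop where
  cardS : Nat.card S = 81
  JS : J ≤ S
  comm : ∀ a ∈ J, ∀ b ∈ J, a * b = b * a
  exp : ∀ a ∈ J, a ^ 3 = 1
  cardJ : Nat.card J = 27
  xS : x ∈ S
  ord : orderOf x = 3
  xc : ∀ s ∈ S, x * s = s * x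
  cen : ∀ z ∈ S, (∀ s ∈ S, z * s = s * z) → z ∈ zpowers x

theorem Hyp.conj {S J : Subgroup G} {x : G} (h : Hyp S J x) (g : G) :
    Hyp (S.map (MulAut.conj g).toMonoidHom) (J.map (MulAut.conj g).toMonoidHom) (g * x * g⁻¹) := by
  have hinj : Function.Injective (MulAut.conj g).toMonoidHom := (MulAut.conj g).injective
  refine ⟨?_, Subgroup.map_mono h.JS, ?_, ?_, ?_, ?_, ?_, ?_, ?_⟩
  · rw [Subgroup.card_map_of_injective hinj, h.cardS]
  · rintro _ ⟨a, ha, rfl⟩ _ ⟨b, hb, rfl⟩
    rw [← map_mul, h.comm a ha b hb, map_mul]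
  · rintro _ ⟨a, ha, rfl⟩
    rw [← map_pow, h.exp a ha, map_one]
  · rw [Subgroup.card_map_of_injective hinj, h.cardJ]
  · exact ⟨x, h.xS, by simp⟩
  · have := MulEquiv.orderOf_eq (MulAut.conj g) x
    rw [MulAut.conj_apply] at this
    rw [this, h.ord]
  · rintro _ ⟨s, hs, rfl⟩
    have := congrArg (MulAut.conj g) (h.xc s hs)
    simpa using this
  · rintro _ ⟨z, hz, rfl⟩ hc
    have h1 : z ∈ zpowers x := h.cen z hz fun s hs => by
      have := hc _ ⟨s, hs, rfl⟩
      rw [← map_mul, ← map_mul] at this
      exact hinj this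
    obtain ⟨k, rfl⟩ := h1
    exact ⟨k, by simp⟩

theorem card_mul_relIndex {H K : Subgroup G} (h : H ≤ K) : H.relIndex K * Nat.card H = Nat.card K := by
  have := Subgroup.relIndex_mul_relIndex ⊥ H K bot_le h
  rw [Subgroup.relIndex_bot_left, Subgroup.relIndex_bot_left] at this
  rw [mul_comm, this]

/-- the abelian subgroups of `S` of order at least 27 -/
theorem Hyp.eq_J [Finite G] {S J : Subgroup G} {x : G} (h : Hyp S J x) {B : Subgroup G} (hBS : B ≤ S)
    (hB : ∀ a ∈ B, ∀ b ∈ B, a * b = b * a) (hc : 27 ≤ Nat.card B) : B = J := by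
  have hBJ : B ≤ J := by
    by_contra hne
    obtain ⟨b, hb, hbJ⟩ := Set.not_subset.1 hne
    have hb' : b ∈ B := hb
    -- `J ⊔ ⟨b⟩ = S`
    have hK : J ⊔ zpowers b = S := by
      have hle : J ⊔ zpowers b ≤ S := sup_le h.JS (by rw [zpowers_le]; exact hBS hb')
      have hlt : J < J ⊔ zpowers b := by
        refine lt_of_le_of_ne le_sup_left fun he => hbJ ?_
        rw [SetLike.mem_coe, he]
        exact (le_sup_right : zpowers b ≤ J ⊔ zpowers b) (mem_zpowers b)
      apply Subgroup.eq_of_le_of_card_ge hle
      have h1 : Nat.card J ∣ Nat.card (J ⊔ zpowers b : Subgroup G) := Subgroup.card_dvd_of_le le_sup_left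
      have h2 : Nat.card (J ⊔ zpowers b : Subgroup G) ∣ Nat.card S := Subgroup.card_dvd_of_le hle
      have h3 : Nat.card J ≠ Nat.card (J ⊔ zpowers b : Subgroup G) := fun he =>
        hlt.ne (Subgroup.eq_of_le_of_card_ge hlt.le he.ge)
      rw [h.cardJ] at h1 h3
      rw [h.cardS] at h2 ⊢
      obtain ⟨c, hc⟩ := h1
      rw [hc] at h2 h3 ⊢
      have h4 : c ∣ 3 := Nat.dvd_of_mul_dvd_mul_left (by norm_num) (show 27 * c ∣ 27 * 3 by norm_num; exact h2)
      rcases (Nat.dvd_prime Nat.prime_three).1 h4 with h5 | h5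
      · rw [h5] at h3; omega
      · rw [h5]
    have hint : J ⊓ B ≤ zpowers x := by
      intro z hz
      apply h.cen z (h.JS hz.1)
      have h1 : S ≤ centralizer ({z} : Set G) := by
        rw [← hK]
        refine sup_le (fun j hj => ?_) ?_
        · rw [mem_centralizer_singleton_iff]
          exact h.comm j hj z hz.1
        · rw [zpowers_le, mem_centralizer_singleton_iff]
          exact hB b hb' z hz.2
      intro s hs
      exact (mem_centralizer_singleton_iff.1 (h1 hs)).symm
    have h3 : Nat.card (J ⊓ B : Subgroup G) ≤ 3 := by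
      have h4 := Subgroup.card_le_of_le hint
      rwa [Nat.card_zpowers, h.ord] at h4
    have h5 : J.relIndex B ≤ 3 := by
      have h6 : J.relIndex S = 3 := by
        have := card_mul_relIndex h.JS
        rw [h.cardJ, h.cardS] at this
        omega
      rw [← h6]
      exact Subgroup.relIndex_le_of_le_right hBS (by rw [h6]; norm_num)
    have h7 : J.relIndex B * Nat.card (J ⊓ B : Subgroup G) = Nat.card B := by
      rw [← Subgroup.inf_relIndex_right]
      exact card_mul_relIndex inf_le_right
    have h8 : J.relIndex B * Nat.card (J ⊓ B : Subgroup G) ≤ 3 * 3 := Nat.mul_le_mul h5 h3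
    omega
  exact Subgroup.eq_of_le_of_card_ge hBJ (by rw [h.cardJ]; exact hc)

/-- each 3-subgroup lies in a conjugate of `S` -/
theorem exists_conj [Finite G] (S : Sylow 3 G) {P : Subgroup G} (hP : IsPGroup 3 P) :
    ∃ g : G, P ≤ (S : Subgroup G).map (MulAut.conj g).toMonoidHom := by
  obtain ⟨Q, hQ⟩ := hP.exists_le_sylow
  obtain ⟨g, hg⟩ := MulAction.exists_smul_eq G S Q
  refine ⟨g, hQ.trans ?_⟩
  rw [← hg, Sylow.coe_subgroup_smul]
  rfl

theorem isPGroup_of_dvd [Finite G] {A : Subgroup G} (h : Nat.card A ∣ 81) : IsPGroup 3 A := by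
  obtain ⟨k, _, hk⟩ := (Nat.dvd_prime_pow Nat.prime_three).1 (show Nat.card A ∣ 3 ^ 4 by norm_num; exact h)
  exact IsPGroup.of_card hk

/-- The centralizer of `J`. -/
theorem Hyp.centralizer_J [Finite G] {S : Sylow 3 G} {J : Subgroup G} {x : G} (h : Hyp (S : Subgroup G) J x)
    (sig : ∀ K : Subgroup G, (Nat.card K).Coprime 3 → (∀ j ∈ J, K.map (MulAut.conj j).toMonoidHom = K) → K = ⊥) :
    centralizer (J : Set G) = J := by
  have hJC : J ≤ centralizer (J : Set G) := fun a ha => by
    rw [mem_centralizer_iff]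
    intro b hb
    exact h.comm b hb a ha
  -- `J` is a Sylow 3-subgroup of its centralizer
  have h1 : ¬ 3 ∣ J.relIndex (centralizer (J : Set G)) := by
    intro h3
    have hc := card_mul_relIndex hJC
    have h81 : 3 ^ 4 ∣ Nat.card (centralizer (J : Set G)) := by
      rw [← hc, h.cardJ]
      obtain ⟨c, hc⟩ := h3
      rw [hc]
      exact ⟨c, by ring⟩
    obtain ⟨T, hT⟩ := Sylow.exists_subgroup_card_pow_prime 3 h81
    have hTp : IsPGroup 3 (T.map (centralizer (J : Set G)).subtype) := by
      apply isPGroup_of_dvd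
      rw [Subgroup.card_map_of_injective (Subgroup.subtype_injective _), hT]
      norm_num
    obtain ⟨g, hg⟩ := exists_conj S hTp
    have hcg := h.conj g
    have hTe : T.map (centralizer (J : Set G)).subtype = (S : Subgroup G).map (MulAut.conj g).toMonoidHom := by
      apply Subgroup.eq_of_le_of_card_ge hg
      rw [hcg.cardS, Subgroup.card_map_of_injective (Subgroup.subtype_injective _), hT]
      norm_num
    -- `J` centralizes a Sylow subgroup `Q`, hence lies in it
    have hcc : ∀ j ∈ J, ∀ t ∈ T.map (centralizer (J : Set G)).subtype, j * t = t * j := by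
      rintro j hj _ ⟨t, _, rfl⟩
      exact mem_centralizer_iff.1 t.2 j hj
    have hJT : J ≤ T.map (centralizer (J : Set G)).subtype := by
      have hle : (T.map (centralizer (J : Set G)).subtype) ≤ T.map (centralizer (J : Set G)).subtype ⊔ J := le_sup_left
      have hnor : J ≤ normalizer ((T.map (centralizer (J : Set G)).subtype : Subgroup G) : Set G) := by
        intro j hj
        rw [mem_normalizer_iff]
        intro t
        constructor
        · intro ht
          have := hcc j hj t ht
          rw [this, mul_assoc, mul_inv_cancel, mul_one]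
          exact ht
        · intro ht
          have := hcc j hj _ ht
          have h2 : t = j * t * j⁻¹ := by
            have h3 : j * (j * t * j⁻¹) * j⁻¹ = j * t * j⁻¹ := by rw [this]; group
            have h4 : j * t * j⁻¹ = t := by
              have := congrArg (fun y => j⁻¹ * y * j) h3
              simpa [mul_assoc] using this
            exact h4.symm
          rw [h2]; exact ht
      have hp : IsPGroup 3 (T.map (centralizer (J : Set G)).subtype ⊔ J : Subgroup G) :=
        IsPGroup.to_sup_of_normal_left' hTp (isPGroup_of_dvd (by rw [h.cardJ]; norm_num)) hnor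
      obtain ⟨g', hg'⟩ := exists_conj S hp
      have h5 : T.map (centralizer (J : Set G)).subtype = T.map (centralizer (J : Set G)).subtype ⊔ J := by
        apply Subgroup.eq_of_le_of_card_ge hle
        have h6 := Subgroup.card_le_of_le hg'
        rw [(h.conj g').cardS] at h6
        have h66 : Nat.card (T.map (centralizer (J : Set G)).subtype) = 81 := by rw [hTe, hcg.cardS]
        rw [h66]
        exact h6
      rw [h5]
      exact le_sup_right
    -- so `Q` has centre of order at least 27
    have h7 : J ≤ zpowers (g * x * g⁻¹) := fun j hj => by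
      apply hcg.cen j (by rw [← hTe]; exact hJT hj)
      rw [← hTe]
      exact hcc j hj
    have h8 := Subgroup.card_le_of_le h7
    rw [Nat.card_zpowers, hcg.ord, h.cardJ] at h8
    omega
  -- a complement
  have hn : (J.subgroupOf (centralizer (J : Set G))).Normal := by
    constructor
    intro a ha c
    rw [mem_subgroupOf] at ha ⊢
    have : (c : G) * a * (c : G)⁻¹ = a := by
      rw [← mem_centralizer_iff.1 c.2 a ha, mul_assoc, mul_inv_cancel, mul_one]
    simpa [this] using ha
  have hcop : (Nat.card (J.subgroupOf (centralizer (J : Set G)))).Coprime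
      (J.subgroupOf (centralizer (J : Set G))).index := by
    rw [Nat.card_congr (Subgroup.subgroupOfEquivOfLe hJC).toEquiv, h.cardJ]
    have : Nat.Coprime 3 (J.subgroupOf (centralizer (J : Set G))).index :=
      (Nat.Prime.coprime_iff_not_dvd Nat.prime_three).2 h1
    have := Nat.Coprime.pow_left 3 this
    simpa using this
  obtain ⟨W, hW⟩ := Subgroup.exists_right_complement'_of_coprime hcop
  have hWc : Nat.card (W.map (centralizer (J : Set G)).subtype) = J.relIndex (centralizer (J : Set G)) := by
    rw [Subgroup.card_map_of_injective (Subgroup.subtype_injective _)]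
    exact hW.symm.index_eq_card.symm
  have hW1 : W.map (centralizer (J : Set G)).subtype = ⊥ := by
    apply sig
    · rw [hWc]
      exact ((Nat.Prime.coprime_iff_not_dvd Nat.prime_three).2 h1).symm
    · intro j hj
      ext w
      constructor
      · rintro ⟨_, ⟨v, hv, rfl⟩, rfl⟩
        refine ⟨v, hv, ?_⟩
        have := mem_centralizer_iff.1 v.2 j hj
        simp [this]
      · rintro ⟨v, hv, rfl⟩
        refine ⟨v, ⟨v, hv, rfl⟩, ?_⟩
        have := mem_centralizer_iff.1 v.2 j hj
        simp [this]
  rw [hW1, Subgroup.card_bot] at hWc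
  have h9 := card_mul_relIndex hJC
  rw [← hWc, one_mul] at h9
  exact (Subgroup.eq_of_le_of_card_ge hJC h9.ge).symm

/-- a conjugate of `⟨x⟩` -/
theorem card_centralizer_conj [Finite G] {x y g : G} (h : zpowers y = zpowers (g * x * g⁻¹)) :
    Nat.card (centralizer ({y} : Set G)) = Nat.card (centralizer ({x} : Set G)) := by
  have h1 : centralizer ({y} : Set G) = (centralizer ({x} : Set G)).map (MulAut.conj g).toMonoidHom := by
    have h2 : ∀ u v : G, zpowers u = zpowers v → centralizer ({u} : Set G) ≤ centralizer ({v} : Set G) := by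
      intro u v huv c hc
      rw [mem_centralizer_singleton_iff] at hc ⊢
      have hv : v ∈ zpowers u := by rw [huv]; exact mem_zpowers v
      obtain ⟨k, rfl⟩ := hv
      exact (Commute.zpow_right (show Commute c u from hc) k).eq
    have h3 : centralizer ({y} : Set G) = centralizer ({g * x * g⁻¹} : Set G) :=
      le_antisymm (h2 _ _ h) (h2 _ _ h.symm)
    rw [h3]
    ext c
    constructor
    · intro hc
      rw [mem_centralizer_singleton_iff] at hc
      refine ⟨g⁻¹ * c * g, ?_, by simp [mul_assoc]⟩
      rw [SetLike.mem_coe, mem_centralizer_singleton_iff]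
      have := congrArg (fun t => g⁻¹ * t * g) hc
      simpa [mul_assoc] using this
    · rintro ⟨d, hd, rfl⟩
      rw [SetLike.mem_coe, mem_centralizer_singleton_iff] at hd
      rw [mem_centralizer_singleton_iff]
      have := congrArg (fun t => g * t * g⁻¹) hd
      simpa [mul_assoc] using this
  rw [h1, Subgroup.card_map_of_injective (MulAut.conj g).injective]

theorem Hyp.mem_x [Finite G] {S J : Subgroup G} {x : G} (h : Hyp S J x) {b z : G} (hb : b ∈ S) (hbJ : b ∉ J)
    (hz : z ∈ J) (hc : b * z = z * b) : z ∈ zpowers x := by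
  have hK : J ⊔ zpowers b = S := by
    have hle : J ⊔ zpowers b ≤ S := sup_le h.JS (by rw [zpowers_le]; exact hb)
    have hlt : J < J ⊔ zpowers b := by
      refine lt_of_le_of_ne le_sup_left fun he => hbJ ?_
      rw [he]
      exact (le_sup_right : zpowers b ≤ J ⊔ zpowers b) (mem_zpowers b)
    apply Subgroup.eq_of_le_of_card_ge hle
    have h1 : Nat.card J ∣ Nat.card (J ⊔ zpowers b : Subgroup G) := Subgroup.card_dvd_of_le le_sup_left
    have h2 : Nat.card (J ⊔ zpowers b : Subgroup G) ∣ Nat.card S := Subgroup.card_dvd_of_le hle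
    have h3 : Nat.card J ≠ Nat.card (J ⊔ zpowers b : Subgroup G) := fun he =>
      hlt.ne (Subgroup.eq_of_le_of_card_ge hlt.le he.ge)
    rw [h.cardJ] at h1 h3
    rw [h.cardS] at h2 ⊢
    obtain ⟨c, hc⟩ := h1
    rw [hc] at h2 h3 ⊢
    have h4 : c ∣ 3 := Nat.dvd_of_mul_dvd_mul_left (by norm_num) (show 27 * c ∣ 27 * 3 by norm_num; exact h2)
    rcases (Nat.dvd_prime Nat.prime_three).1 h4 with h5 | h5
    · rw [h5] at h3; omega
    · rw [h5]
  apply h.cen z (h.JS hz)
  have h1 : S ≤ centralizer ({z} : Set G) := by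
    rw [← hK]
    refine sup_le (fun j hj => ?_) ?_
    · rw [mem_centralizer_singleton_iff]
      exact h.comm j hj z hz
    · rw [zpowers_le, mem_centralizer_singleton_iff]
      exact hc
  intro s hs
  exact (mem_centralizer_singleton_iff.1 (h1 hs)).symm

theorem zpowers_eq_of_mem [Finite G] {x y : G} (hx : orderOf x = 3) (hy : orderOf y = 3) (h : y ∈ zpowers x) :
    zpowers y = zpowers x := by
  have h1 : zpowers y ≤ zpowers x := by rw [zpowers_le]; exact h
  apply Subgroup.eq_of_le_of_card_ge h1
  rw [Nat.card_zpowers, Nat.card_zpowers, hx, hy]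

/-- The consequences for subgroups. -/
structure KH (N : ℕ) (K : Type*) [Group K] : Prop where
  ab : ∀ A : Subgroup K, (∀ a ∈ A, ∀ b ∈ A, a * b = b * a) → 27 ∣ Nat.card A →
    Nat.card A = 27 ∧ ∀ a ∈ A, a ^ 3 = 1
  sig : ∀ A W : Subgroup K, (∀ a ∈ A, ∀ b ∈ A, a * b = b * a) → Nat.card A = 27 → (Nat.card W).Coprime 3 →
    (∀ a ∈ A, ∀ w ∈ W, a * w * a⁻¹ ∈ W) → W = ⊥
  big : ∀ y : K, orderOf y = 3 → 81 ∣ Nat.card (centralizer ({y} : Set K)) →
    Nat.card (centralizer ({y} : Set K)) ∣ N
  nine : ∀ y g : K, orderOf y = 3 → orderOf g = 9 → y * g = g * y →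
    Nat.card (centralizer ({y} : Set K)) ∣ N

/-- an abelian subgroup of order 27 is a conjugate of `J` -/
theorem Hyp.exists_eq [Finite G] {S : Sylow 3 G} {J : Subgroup G} {x : G} (h : Hyp (S : Subgroup G) J x)
    {A : Subgroup G} (hA : ∀ a ∈ A, ∀ b ∈ A, a * b = b * a) (hc : Nat.card A = 27) :
    ∃ g : G, A = J.map (MulAut.conj g).toMonoidHom := by
  obtain ⟨g, hg⟩ := exists_conj S (isPGroup_of_dvd (A := A) (by rw [hc]; norm_num))
  exact ⟨g, (h.conj g).eq_J hg hA hc.ge⟩

theorem Hyp.kh [Finite G] {S : Sylow 3 G} {J : Subgroup G} {x : G} (h : Hyp (S : Subgroup G) J x)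
    (sig : ∀ K : Subgroup G, (Nat.card K).Coprime 3 → (∀ j ∈ J, K.map (MulAut.conj j).toMonoidHom = K) → K = ⊥) :
    KH (Nat.card (centralizer ({x} : Set G))) G := by
  refine ⟨?_, ?_, ?_, ?_⟩
  · intro A hA h27
    obtain ⟨P, hP⟩ := Sylow.exists_subgroup_card_pow_prime 3 (show 3 ^ 3 ∣ Nat.card A by norm_num; exact h27)
    have hP' : Nat.card (P.map A.subtype) = 27 := by
      rw [Subgroup.card_map_of_injective (Subgroup.subtype_injective _), hP]; norm_num
    have hPA : P.map A.subtype ≤ A := by
      rintro _ ⟨a, _, rfl⟩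
      exact a.2
    obtain ⟨g, hg⟩ := h.exists_eq (fun a ha b hb => hA a (hPA ha) b (hPA hb)) hP'
    have hAJ : A ≤ J.map (MulAut.conj g).toMonoidHom := by
      intro a ha
      have h1 : g⁻¹ * a * g ∈ J := by
        rw [← h.centralizer_J sig, mem_centralizer_iff]
        intro j hj
        have h2 : g * j * g⁻¹ ∈ A := hPA (by rw [hg]; exact ⟨j, hj, by simp⟩)
        have h3 := hA _ h2 a ha
        have := congrArg (fun t => g⁻¹ * t * g) h3
        simpa [mul_assoc] using this
      exact ⟨_, h1, by simp [mul_assoc]⟩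
    have hAe : A = J.map (MulAut.conj g).toMonoidHom := le_antisymm hAJ (hg ▸ hPA)
    constructor
    · rw [hAe, Subgroup.card_map_of_injective (MulAut.conj g).injective, h.cardJ]
    · intro a ha
      obtain ⟨j, hj, rfl⟩ := hAJ ha
      rw [← map_pow, h.exp j hj, map_one]
  · intro A W hA hc hW hn
    obtain ⟨g, hg⟩ := h.exists_eq hA hc
    have h1 : W.map (MulAut.conj g⁻¹).toMonoidHom = ⊥ := by
      apply sig
      · rw [Subgroup.card_map_of_injective (MulAut.conj g⁻¹).injective]
        exact hW
      · intro j hj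
        apply Subgroup.eq_of_le_of_card_ge
        · rintro _ ⟨_, ⟨w, hw, rfl⟩, rfl⟩
          have h2 : g * j * g⁻¹ ∈ A := by rw [hg]; exact ⟨j, hj, by simp⟩
          refine ⟨_, hn _ h2 w hw, ?_⟩
          simp [mul_assoc]
        · exact (Subgroup.card_map_of_injective (MulAut.conj j).injective).ge
    rw [Subgroup.map_eq_bot_iff_of_injective _ (MulAut.conj g⁻¹).injective] at h1
    exact h1
  · intro y hy h81
    obtain ⟨T, hT⟩ := Sylow.exists_subgroup_card_pow_prime 3 (show 3 ^ 4 ∣ Nat.card (centralizer ({y} : Set G)) by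
      norm_num; exact h81)
    have hTc : Nat.card (T.map (centralizer ({y} : Set G)).subtype) = 81 := by
      rw [Subgroup.card_map_of_injective (Subgroup.subtype_injective _), hT]; norm_num
    have hTy : ∀ t ∈ T.map (centralizer ({y} : Set G)).subtype, y * t = t * y := by
      rintro _ ⟨t, _, rfl⟩
      exact (mem_centralizer_singleton_iff.1 t.2).symm
    set T' := T.map (centralizer ({y} : Set G)).subtype with hT'
    have hTp : IsPGroup 3 T' := isPGroup_of_dvd (by rw [hTc])
    have hyp : IsPGroup 3 (zpowers y) := isPGroup_of_dvd (by rw [Nat.card_zpowers, hy]; norm_num)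
    have hnor : zpowers y ≤ normalizer (T' : Set G) := by
      rw [zpowers_le, mem_normalizer_iff]
      intro t
      constructor
      · intro ht
        rw [hTy t ht, mul_assoc, mul_inv_cancel, mul_one]
        exact ht
      · intro ht
        have h3 := hTy _ ht
        have h4 : y * t * y⁻¹ = t := by
          have h5 : y⁻¹ * (y * (y * t * y⁻¹)) * 1 = y⁻¹ * ((y * t * y⁻¹) * y) * 1 := by rw [h3]
          simpa [mul_assoc] using h5
        rw [h4] at ht
        exact ht
    have hp : IsPGroup 3 (T' ⊔ zpowers y : Subgroup G) := IsPGroup.to_sup_of_normal_left' hTp hyp hnor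
    obtain ⟨g, hg⟩ := exists_conj S hp
    have hcg := h.conj g
    have hTe : T' = (S : Subgroup G).map (MulAut.conj g).toMonoidHom := by
      apply Subgroup.eq_of_le_of_card_ge (le_sup_left.trans hg)
      rw [hcg.cardS, hTc]
    have hyS : y ∈ (S : Subgroup G).map (MulAut.conj g).toMonoidHom := hg (le_sup_right (a := T') (mem_zpowers y))
    have hyx : y ∈ zpowers (g * x * g⁻¹) := by
      apply hcg.cen y hyS
      rw [← hTe]
      exact hTy
    rw [card_centralizer_conj (zpowers_eq_of_mem hcg.ord hy hyx)]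
  · intro y t hy ht hyt
    have hnor : zpowers y ≤ normalizer (zpowers t : Set G) := by
      rw [zpowers_le, mem_normalizer_iff]
      intro u
      constructor
      · rintro ⟨k, rfl⟩
        refine ⟨k, ?_⟩
        have : Commute y (t ^ k) := (show Commute y t from hyt).zpow_right k
        simp only
        rw [this.eq, mul_assoc, mul_inv_cancel, mul_one]
      · rintro ⟨k, hk⟩
        refine ⟨k, ?_⟩
        have : Commute y (t ^ k) := (show Commute y t from hyt).zpow_right k
        simp only at hk ⊢
        have h1 : u = y⁻¹ * t ^ k * y := by rw [hk]; group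
        rw [h1, mul_assoc, ← this.eq, ← mul_assoc, inv_mul_cancel, one_mul]
    have hp : IsPGroup 3 (zpowers t ⊔ zpowers y : Subgroup G) :=
      IsPGroup.to_sup_of_normal_left' (isPGroup_of_dvd (by rw [Nat.card_zpowers, ht]; norm_num))
        (isPGroup_of_dvd (by rw [Nat.card_zpowers, hy]; norm_num)) hnor
    obtain ⟨g, hg⟩ := exists_conj S hp
    have hcg := h.conj g
    set S1 := (S : Subgroup G).map (MulAut.conj g).toMonoidHom
    set J1 := J.map (MulAut.conj g).toMonoidHom
    have htS : t ∈ S1 := hg (le_sup_left (b := zpowers y) (mem_zpowers t))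
    have hyS : y ∈ S1 := hg (le_sup_right (a := zpowers t) (mem_zpowers y))
    have htJ : t ∉ J1 := fun hh => by
      have h1 := orderOf_dvd_of_pow_eq_one (hcg.exp t hh)
      rw [ht] at h1
      norm_num at h1
    have hidx : J1.relIndex S1 = 3 := by
      have := card_mul_relIndex hcg.JS
      rw [hcg.cardJ, hcg.cardS] at this
      omega
    have hPt : zpowers t ⊔ zpowers y ≤ centralizer ({t} : Set G) := by
      refine sup_le ?_ ?_
      · rw [zpowers_le, mem_centralizer_singleton_iff]
      · rw [zpowers_le, mem_centralizer_singleton_iff]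
        exact hyt
    have hPJ : J1 ⊓ (zpowers t ⊔ zpowers y) ≤ zpowers (g * x * g⁻¹) := fun z hz =>
      hcg.mem_x htS htJ hz.1 (mem_centralizer_singleton_iff.1 (hPt hz.2)).symm
    have h3 : Nat.card (J1 ⊓ (zpowers t ⊔ zpowers y) : Subgroup G) ≤ 3 := by
      have h4 := Subgroup.card_le_of_le hPJ
      rwa [Nat.card_zpowers, hcg.ord] at h4
    have h5 : J1.relIndex (zpowers t ⊔ zpowers y) ≤ 3 := by
      rw [← hidx]
      exact Subgroup.relIndex_le_of_le_right hg (by rw [hidx]; norm_num)
    have h7 : J1.relIndex (zpowers t ⊔ zpowers y) * Nat.card (J1 ⊓ (zpowers t ⊔ zpowers y) : Subgroup G) =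
        Nat.card (zpowers t ⊔ zpowers y : Subgroup G) := by
      rw [← Subgroup.inf_relIndex_right]
      exact card_mul_relIndex inf_le_right
    have h8 : J1.relIndex (zpowers t ⊔ zpowers y) * Nat.card (J1 ⊓ (zpowers t ⊔ zpowers y) : Subgroup G) ≤ 3 * 3 :=
      Nat.mul_le_mul h5 h3
    have hPe : zpowers t = zpowers t ⊔ zpowers y := by
      apply Subgroup.eq_of_le_of_card_ge le_sup_left
      rw [Nat.card_zpowers, ht]
      omega
    have h9 : 9 ≤ Nat.card (zpowers t ⊔ zpowers y : Subgroup G) := by
      rw [← hPe, Nat.card_zpowers, ht]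
    have hxe : J1 ⊓ (zpowers t ⊔ zpowers y) = zpowers (g * x * g⁻¹) := by
      apply Subgroup.eq_of_le_of_card_ge hPJ
      rw [Nat.card_zpowers, hcg.ord]
      by_contra hlt
      have : J1.relIndex (zpowers t ⊔ zpowers y) * Nat.card (J1 ⊓ (zpowers t ⊔ zpowers y) : Subgroup G) ≤ 3 * 2 :=
        Nat.mul_le_mul h5 (by omega)
      omega
    have hot3 : orderOf (t ^ 3) = 3 := by
      rw [orderOf_pow' t (by norm_num), ht]
      norm_num
    have key : ∀ z : G, z ∈ zpowers t → orderOf z = 3 → zpowers z = zpowers (t ^ 3) := by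
      rintro _ ⟨k, rfl⟩ hz
      apply zpowers_eq_of_mem hot3 hz
      have h6 : (9 : ℤ) ∣ k * 3 := by
        have h5 : (t ^ k) ^ 3 = 1 := by
          have := pow_orderOf_eq_one (t ^ k)
          simp only at hz
          rw [hz] at this
          exact this
        have : t ^ (k * 3) = 1 := by rw [zpow_mul]; exact_mod_cast h5
        have := orderOf_dvd_iff_zpow_eq_one.2 this
        rw [ht] at this
        exact_mod_cast this
      obtain ⟨m, hm⟩ : (3 : ℤ) ∣ k := by omega
      refine ⟨m, ?_⟩
      simp only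
      rw [hm, zpow_mul]
      norm_cast
    have hy1 : zpowers y = zpowers (t ^ 3) := key y (by rw [hPe]; exact le_sup_right (a := zpowers t) (mem_zpowers y)) hy
    have hx1 : zpowers (g * x * g⁻¹) = zpowers (t ^ 3) := key _ (by
      rw [hPe]
      exact (inf_le_right : J1 ⊓ (zpowers t ⊔ zpowers y) ≤ _) (by rw [hxe]; exact mem_zpowers _)) hcg.ord
    rw [card_centralizer_conj (hy1.trans hx1.symm)]

/-- `KH` goes to subgroups -/
theorem KH.of_injective [Finite G] {N : ℕ} (h : KH N G) {K : Type*} [Group K] (f : K →* G)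
    (hf : Function.Injective f) : KH N K := by
  have hc : ∀ y : K, Nat.card (centralizer ({y} : Set K)) ∣ Nat.card (centralizer ({f y} : Set G)) := by
    intro y
    rw [← Subgroup.card_map_of_injective hf]
    apply Subgroup.card_dvd_of_le
    rintro _ ⟨c, hc, rfl⟩
    rw [SetLike.mem_coe, mem_centralizer_singleton_iff] at hc
    rw [mem_centralizer_singleton_iff, ← map_mul, hc, map_mul]
  refine ⟨?_, ?_, ?_, ?_⟩
  · intro A hA h27
    obtain ⟨h1, h2⟩ := h.ab (A.map f) (by
      rintro _ ⟨a, ha, rfl⟩ _ ⟨b, hb, rfl⟩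
      rw [← map_mul, hA a ha b hb, map_mul]) (by rw [Subgroup.card_map_of_injective hf]; exact h27)
    rw [Subgroup.card_map_of_injective hf] at h1
    refine ⟨h1, fun a ha => hf ?_⟩
    rw [map_pow, h2 _ ⟨a, ha, rfl⟩, map_one]
  · intro A W hA hc hW hn
    have := h.sig (A.map f) (W.map f) (by
      rintro _ ⟨a, ha, rfl⟩ _ ⟨b, hb, rfl⟩
      rw [← map_mul, hA a ha b hb, map_mul]) (by rw [Subgroup.card_map_of_injective hf]; exact hc)
      (by rw [Subgroup.card_map_of_injective hf]; exact hW) (by
      rintro _ ⟨a, ha, rfl⟩ _ ⟨w, hw, rfl⟩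
      exact ⟨_, hn a ha w hw, by simp⟩)
    rwa [Subgroup.map_eq_bot_iff_of_injective _ hf] at this
  · intro y hy h81
    exact (hc y).trans (h.big (f y) (by rw [orderOf_injective f hf, hy]) (h81.trans (hc y)))
  · intro y g hy hg hyg
    exact (hc y).trans (h.nine (f y) (f g) (by rw [orderOf_injective f hf, hy]) (by rw [orderOf_injective f hf, hg])
      (by rw [← map_mul, hyg, map_mul]))

end Cfsg.Agent.H344.Wr
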